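/- `p`-groups of rank two have no quotient `Z_p ≀ Z_p`. -/
import Cfsg.Agent.H27.Bb4

set_option autoImplicit false
set_option linter.unusedSectionVars false

namespace H27.Bb

open Cfsg Subgroup
open scoped commutatorElement

universe u

variable {G : Type u} [Group G] {p : ℕ}

/-- the properties of `Z_p ≀ Z_p` that are used -/
def WP (p : ℕ) (H : Type*) [Group H] : Prop :=
  ∃ B : Subgroup H, (∀ a ∈ B, ∀ b ∈ B, Commute a b) ∧ (∀ b ∈ B, b ^ p = 1) ∧ p ^ p ≤ Nat.card B ∧
    ∃ ρ : H, Nat.card ↥(B ⊓ centralizer {ρ}) ≤ p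

theorem WP.map {H K : Type*} [Group H] [Group K] (h : WP p H) (f : H →* K)
    (hf : Function.Injective f) : WP p K := by
  obtain ⟨B, h1, h2, h3, ρ, h4⟩ := h
  refine ⟨B.map f, ?_, ?_, by rwa [card_map_of_injective hf], f ρ, ?_⟩
  · rintro _ ⟨a, ha, rfl⟩ _ ⟨b, hb, rfl⟩; exact (h1 a ha b hb).map f
  · rintro _ ⟨a, ha, rfl⟩; rw [← map_pow, h2 a ha, map_one]
  · have : B.map f ⊓ centralizer {f ρ} = (B ⊓ centralizer {ρ}).map f := by
      ext y
      simp only [mem_inf, mem_map, mem_centralizer_singleton_iff]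
      constructor
      · rintro ⟨⟨a, ha, rfl⟩, h⟩
        exact ⟨a, ⟨ha, hf (by simpa using h)⟩, rfl⟩
      · rintro ⟨a, ⟨ha, h⟩, rfl⟩
        exact ⟨⟨a, ha, rfl⟩, by rw [← map_mul, h, map_mul]⟩
    rwa [this, card_map_of_injective hf]

theorem wp_wreath [hp : Fact p.Prime] :
    WP p (RegularWreathProduct (Multiplicative (ZMod p)) (Multiplicative (ZMod p))) := by
  have cD : Nat.card (Multiplicative (ZMod p)) = p := by simp
  refine ⟨RegularWreathProduct.rightHom.ker, fun a ha b hb => ?_, fun b hb => ?_, ?_,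
    RegularWreathProduct.inl (Multiplicative.ofAdd 1), ?_⟩
  · have ha' : a.right = 1 := ha
    have hb' : b.right = 1 := hb
    ext x <;> simp [ha', hb', mul_comm]
  · have hb' : b.right = 1 := hb
    have : ∀ n : ℕ, b ^ n = ⟨b.left ^ n, 1⟩ := fun n => by
      induction n with
      | zero => ext x <;> simp
      | succ n ih => rw [pow_succ, ih]; ext x <;> simp [hb', pow_succ]
    rw [this]
    ext x <;> simp
  · refine le_of_eq_of_le ?_ (Nat.card_le_card_of_injective
      (fun f : Multiplicative (ZMod p) → Multiplicative (ZMod p) =>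
        (⟨⟨f, 1⟩, rfl⟩ : (RegularWreathProduct.rightHom (D := Multiplicative (ZMod p))
          (Q := Multiplicative (ZMod p))).ker)) fun f g h => ?_)
    · rw [Nat.card_fun, cD]
    · exact congrArg (fun x => x.1.left) h
  · refine le_of_le_of_eq (Nat.card_le_card_of_injective (fun b => b.1.left 1) fun a b h => ?_) cD
    have key : ∀ c : ↥((RegularWreathProduct.rightHom (D := Multiplicative (ZMod p))
        (Q := Multiplicative (ZMod p))).ker ⊓
        centralizer {RegularWreathProduct.inl (Multiplicative.ofAdd 1)}), ∀ x, c.1.left x = c.1.left 1 := by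
      intro c x
      have h1 : c.1.right = 1 := c.2.1
      have h2 := mem_centralizer_singleton_iff.mp c.2.2
      have h3 : ∀ y, c.1.left y = c.1.left ((Multiplicative.ofAdd 1)⁻¹ * y) := fun y => by
        simpa using congrFun (congrArg RegularWreathProduct.left h2) y
      have h4 : ∀ n : ℕ, c.1.left (Multiplicative.ofAdd (n : ZMod p)) = c.1.left 1 := fun n => by
        induction n with
        | zero => simp
        | succ n ih => rw [h3, ← ih]; congr 1; simp [← ofAdd_neg, ← ofAdd_add]
      rw [← h4 (Multiplicative.toAdd x).val]; simp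
    apply Subtype.ext
    have ha : a.1.right = 1 := a.2.1
    have hb : b.1.right = 1 := b.2.1
    ext x
    · rw [key a x, key b x]; exact congrArg _ h
    · rw [ha, hb]

theorem wp_sylow [hp : Fact p.Prime] (R : Sylow p (Equiv.Perm (Fin (p ^ 2)))) : WP p R := by
  let D := Multiplicative (ZMod p)
  have cD : Nat.card D = p := by simp [D]
  let e : D × D ≃ Fin (p ^ 2) := Finite.equivFinOfCardEq (by rw [Nat.card_prod, cD, sq])
  let f := e.permCongrHom.toMonoidHom.comp (RegularWreathProduct.toPerm D D D)
  have hf : Function.Injective f :=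
    (e.permCongrHom.comp_injective _).mpr (RegularWreathProduct.toPermInj D D D)
  have hW : IsPGroup p (RegularWreathProduct D D) :=
    IsPGroup.of_card (n := p + 1) (by rw [RegularWreathProduct.card, cD, pow_succ])
  obtain ⟨R', hR'⟩ := (hW.of_surjective _ f.rangeRestrict_surjective).exists_le_sylow
  refine wp_wreath.map ((R'.equiv R).toMonoidHom.comp ((inclusion hR').comp f.rangeRestrict)) ?_
  exact (R'.equiv R).injective.comp ((inclusion_injective hR').comp fun a b h =>
    hf (congrArg Subtype.val h))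

theorem card_centralizer_map_le [Finite G] {H : Type*} [Group H] (f : G →* H)
    (hf : Function.Surjective f) (x : G) :
    Nat.card (centralizer ({f x} : Set H)) ≤ Nat.card (centralizer ({x} : Set G)) := by
  refine le_trans ?_ (H9.card_centralizer_quotient_le f.ker x)
  let e := QuotientGroup.quotientKerEquivOfSurjective f hf
  have hx : e.symm (f x) = (x : G ⧸ f.ker) := by rw [MulEquiv.symm_apply_eq]; rfl
  refine Nat.card_le_card_of_injective (fun h => ⟨e.symm h.1, ?_⟩) fun a b h => ?_
  · rw [mem_centralizer_singleton_iff, ← hx, ← map_mul, ← map_mul,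
      mem_centralizer_singleton_iff.mp h.2]
  · exact Subtype.ext (e.symm.injective (congrArg Subtype.val h))

theorem not_wp [Finite G] [hp : Fact p.Prime] (hp2 : p ≠ 2) (hG : IsPGroup p G)
    (hr : PRankLE p 2 G) {H : Type*} [Group H] (f : G →* H) (hf : Function.Surjective f) :
    ¬ WP p H := by
  rintro ⟨B, h1, h2, h3, ρ, h4⟩
  have := Finite.of_surjective f hf
  have hpp : p * p < p ^ p := by
    rw [← sq]; exact Nat.pow_lt_pow_right hp.out.one_lt (lt_of_le_of_ne hp.out.two_le hp2.symm)
  by_cases hm : IsMetacyclic G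
  · have := H19.card_le_of_isMetacyclic (H19.isMetacyclic_of_surjective hm f hf) hp.out.pos B h2
    omega
  obtain ⟨V, S⟩ := exists_St hp2 hG hr hm
  have hC : IsMetacyclic ((CC V).map f) :=
    H19.isMetacyclic_of_surjective S.meta_CC _ (f.subgroupMap_surjective _)
  have hB : ¬ B ≤ (CC V).map f := fun h => by
    have := H19.card_le_of_isMetacyclic hC hp.out.pos (B.subgroupOf _) fun g hg =>
      Subtype.ext (h2 _ hg)
    rw [Nat.card_congr (subgroupOfEquivOfLe h).toEquiv] at this
    omega
  obtain ⟨b, hb, hb'⟩ := SetLike.not_le_iff_exists.mp hB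
  obtain ⟨u, rfl⟩ := hf b
  have hu : u ∉ CC V := fun h => hb' ⟨u, h, rfl⟩
  rcases S.main hm with hE | ⟨-, h⟩
  · have hA := (S.typeE_der hE).1
    have hN := S.CC_normal
    have h5 : B ⊓ (CC V).map f ≤ B ⊓ centralizer {ρ} := by
      rintro _ ⟨hy, c, hc, rfl⟩
      obtain ⟨r, rfl⟩ := hf ρ
      obtain ⟨d, hd, i, rfl⟩ := H9.mem_sup_zpowers.mp ((S.sup_eq hu).ge (mem_top r))
      refine ⟨hy, mem_centralizer_singleton_iff.mpr ?_⟩
      have hcd : Commute c d := congrArg Subtype.val (mul_comm' (⟨c, hc⟩ : CC V) ⟨d, hd⟩)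
      rw [map_mul, map_zpow]
      exact (hcd.map f).mul_right ((h1 _ hy _ hb).zpow_right i)
    have := hN.map f hf
    have h6 := (((CC V).map f).subgroupOf B).card_mul_index
    rw [← inf_subgroupOf_left, Nat.card_congr (subgroupOfEquivOfLe inf_le_left).toEquiv,
      inf_subgroupOf_left] at h6
    have h7 : (((CC V).map f).subgroupOf B).index ≤ p := Nat.le_of_dvd hp.out.pos
      ((relIndex_dvd_index_of_normal _ B).trans (S.index_CC hu ▸ index_map_dvd _ hf))
    have h8 := Nat.mul_le_mul ((card_le_of_le h5).trans h4) h7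
    omega
  · have h5 := card_centralizer_map_le f hf u
    have h6 := card_le_of_le (show B ≤ centralizer {f u} from fun y hy =>
      mem_centralizer_singleton_iff.mpr (h1 _ hy _ hb))
    rw [h u hu, sq] at h5
    omega

end H27.Bb
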