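/- `p`-groups of rank two with a coprime operator group fixing a central element. -/
import Cfsg.Agent.H27.Bb5
import Cfsg.Agent.H48.Blackburn

set_option autoImplicit false
set_option linter.unusedSectionVars false

namespace H27.Bb

open Cfsg Subgroup
open scoped commutatorElement

universe u

variable {G : Type u} [Group G] {p : ℕ}

namespace St

variable [Finite G] [hp : Fact p.Prime] {V : Subgroup G} (S : St p V)
include S

theorem isCyclic_of_not_le {H : Subgroup G} (h1 : H ≤ CC V) (h2 : ¬ V ≤ H) : IsCyclic H := by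
  rw [H48.isCyclic_iff_pRankLE_one S.hp2 (S.hG.to_subgroup H), H48.pRankLE_iff_subgroup]
  intro A hA hE
  have h3 : A < V := lt_of_le_of_ne (fun a ha => S.mem_V (h1 (hA ha)) (hE.2 a ha))
    fun h => h2 (h ▸ hA)
  have h4 := H9.mul_card_le_of_lt S.hG h3
  rw [S.hc, sq] at h4
  rw [pow_one]
  exact Nat.le_of_mul_le_mul_left h4 hp.out.pos

theorem exists_top_pow {g : G} (hg : g ∈ CC V) (h1 : g ≠ 1) :
    ∃ m : ℕ, orderOf g = p ^ (m + 1) ∧ g ^ p ^ m ∈ V ∧ g ^ p ^ m ≠ 1 := by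
  obtain ⟨m, hm⟩ := (IsPGroup.iff_orderOf.mp S.hG) g
  obtain ⟨m, rfl⟩ : ∃ k, m = k + 1 := by
    rcases m with _ | m
    · rw [pow_zero, orderOf_eq_one_iff] at hm; exact (h1 hm).elim
    · exact ⟨m, rfl⟩
  refine ⟨m, hm, S.mem_V (pow_mem hg _) ?_, pow_ne_one_of_lt_orderOf (pow_pos hp.out.pos m).ne'
    (hm ▸ Nat.pow_lt_pow_right hp.out.one_lt (by omega))⟩
  rw [← pow_mul, ← pow_succ, ← hm, pow_orderOf_eq_one]

variable {u : G} (hu : u ∉ CC V)
include hu

theorem not_CC_le_der : ¬ CC V ≤ commutator G := fun h => by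
  have h1 := H9.sq_le_index_commutator S.hG fun hc => by
    have := hc.commGroup
    have h2 : IsMulCommutative G := hc.isMulCommutative
    exact hu (mem_centralizer_iff.mpr fun v _ => mul_comm' v u)
  have h2 := index_antitone h
  rw [S.index_CC hu, sq] at *
  have := lt_mul_of_one_lt_right hp.out.pos hp.out.one_lt
  omega

theorem homocyclic (hA : IsMulCommutative (CC V)) {B D : Subgroup G} (hsup : B ⊔ D = CC V)
    (hinf : B ⊓ D = ⊥) (hZ : ZZ V ≤ D) (hD : D ≤ commutator G) :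
    ∃ k : ℕ, 1 ≤ k ∧ Nat.card G = p ^ (2 * k + 1) ∧ ∃ d ∈ D, orderOf d = p ^ k := by
  have hN := S.CC_normal
  have hBC : B ≤ CC V := hsup ▸ le_sup_left
  have hDC : D ≤ CC V := hsup ▸ le_sup_right
  have cm : ∀ x ∈ CC V, ∀ y ∈ CC V, Commute x y := fun x hx y hy =>
    congrArg Subtype.val (mul_comm' (⟨x, hx⟩ : CC V) ⟨y, hy⟩)
  have bot : ∀ x ∈ B, x ∈ D → x = 1 := fun x h1 h2 => mem_bot.mp (hinf ▸ ⟨h1, h2⟩)
  have hZ0 : ZZ V ≠ ⊥ := fun h => by
    have := S.card_ZZ hu; rw [h, card_bot] at this; exact hp.out.one_lt.ne this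
  obtain ⟨b, rfl⟩ := H48.isCyclic_iff_zpowers.mp (S.isCyclic_of_not_le hBC fun h =>
    hZ0 (eq_bot_iff.mpr fun t ht => bot t (h ht.1) (hZ ht)))
  have hbC : b ∈ CC V := zpowers_le.mp hBC
  have hb1 : b ≠ 1 := fun h => S.not_CC_le_der hu (by
    rw [← hsup, h, zpowers_one_eq_bot, bot_sup_eq]; exact hD)
  obtain ⟨β, hβ, hbV, hb0⟩ := S.exists_top_pow hbC hb1
  obtain ⟨d, rfl⟩ := H48.isCyclic_iff_zpowers.mp (S.isCyclic_of_not_le hDC fun h =>
    hb0 (bot _ (npow_mem_zpowers _ _) (h hbV)))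
  have hdC : d ∈ CC V := zpowers_le.mp hDC
  have hd1 : d ≠ 1 := fun h => hZ0 (by rw [h, zpowers_one_eq_bot] at hZ; exact eq_bot_iff.mpr hZ)
  obtain ⟨δ, hδ, hdV, hd0⟩ := S.exists_top_pow hdC hd1
  have hdZ : d ^ p ^ δ ∈ ZZ V := zpowers_le.mp (H48.le_of_card_prime_of_le_cyclic
    (C := zpowers d) inferInstance (S.hG.to_subgroup _) (by
      rw [Nat.card_zpowers]; exact orderOf_eq_prime (S.hV.2 _ hdV) hd0)
    (zpowers_le.mpr (npow_mem_zpowers _ _)) hZ hZ0)
  have dec : ∀ c ∈ CC V, ∃ i j : ℤ, c = b ^ i * d ^ j := fun c hc => by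
    have hn : d ∈ normalizer ((zpowers b : Subgroup G) : Set G) :=
      centralizer_le_normalizer _ (mem_centralizer_iff.mpr fun y hy => cm y (hBC hy) d hdC)
    obtain ⟨_, ⟨i, rfl⟩, j, rfl⟩ := (H9.mem_sup_zpowers_of_normalizes hn).mp (hsup.ge hc)
    exact ⟨i, j, rfl⟩
  have mC : ∀ c ∈ CC V, ⁅c, u⁆ ∈ CC V := fun c hc =>
    commutator_le_left _ ⊤ (commutator_mem_commutator hc (mem_top u))
  have pw : ∀ c ∈ CC V, ∀ n : ℕ, ⁅c ^ n, u⁆ = ⁅c, u⁆ ^ n := fun c hc n => by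
    have := H9.commutatorElement_zpow_left (cm c hc _ (mC c hc)) (n : ℤ)
    rwa [zpow_natCast, zpow_natCast] at this
  have kill : ∀ (i j : ℤ) (n : ℕ), (b ^ i * d ^ j) ^ n = (b ^ n) ^ i * (d ^ n) ^ j := fun i j n => by
    rw [((cm b hbC d hdC).zpow_zpow i j).mul_pow, ← zpow_natCast, ← zpow_natCast, ← zpow_mul,
      ← zpow_mul, mul_comm i, mul_comm j, zpow_mul, zpow_mul, zpow_natCast, zpow_natCast]
  have h1 : δ ≤ β := by
    by_contra! hlt
    obtain ⟨c, hc, he⟩ := ((H9.card_commutator_mul_card_inf_center hA (S.sup_eq hu)).2 d).mp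
      (zpowers_le.mp hD)
    obtain ⟨i, j, rfl⟩ := dec c hc
    refine hd0 ?_
    rw [he, ← pw _ hc, kill, (orderOf_dvd_iff_pow_eq_one (x := b)).mp (hβ ▸ pow_dvd_pow p hlt), one_zpow,
      one_mul, commutatorElement_eq_one_iff_mul_comm]
    exact (mem_center_iff.mp ((center G).zpow_mem hdZ.2 j) u).symm
  have h2 : β ≤ δ := by
    by_contra! hlt
    obtain ⟨i, j, he⟩ := dec _ (mC b hbC)
    have hi : (p : ℤ) ∣ i := by
      by_contra hi
      refine S.not_CC_le_der hu (hsup ▸ sup_le ?_ hD)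
      rw [← H19.zpowers_zpow_eq_of_not_dvd S.hG b hi, zpowers_le]
      have : b ^ i = ⁅b, u⁆ * (d ^ j)⁻¹ := by rw [he, mul_inv_cancel_right]
      rw [this]
      exact mul_mem (commutator_mem_commutator (mem_top _) (mem_top _))
        (inv_mem (hD (zpow_mem_zpowers d j)))
    obtain ⟨i, rfl⟩ := hi
    refine hb0 (bot _ (npow_mem_zpowers _ _) (hZ (S.mem_ZZ hu hbV ?_)))
    rw [← commutatorElement_eq_one_iff_commute, pw b hbC, he, kill,
      (orderOf_dvd_iff_pow_eq_one (x := d)).mp (hδ ▸ pow_dvd_pow p hlt), one_zpow, mul_one, zpow_mul,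
      zpow_natCast, S.hV.2 _ hbV, one_zpow]
  obtain rfl : β = δ := le_antisymm h2 h1
  refine ⟨β + 1, by omega, ?_, d, mem_zpowers d, hδ⟩
  have hn : (zpowers d).subgroupOf (CC V) ⊔ (zpowers b).subgroupOf (CC V) = ⊤ := by
    rw [← subgroupOf_sup hDC hBC, sup_comm, hsup, subgroupOf_self]
  have h3 := H9.card_sup_mul_card_inf ((zpowers d).subgroupOf (CC V)) ((zpowers b).subgroupOf (CC V))
  have h4 : (zpowers b).subgroupOf (CC V) ⊓ (zpowers d).subgroupOf (CC V) = ⊥ :=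
    eq_bot_iff.mpr fun y hy => mem_bot.mpr (Subtype.ext (bot _ hy.1 hy.2))
  rw [hn, h4, card_bot, card_top,
    Nat.card_congr (subgroupOfEquivOfLe hBC).toEquiv, Nat.card_congr (subgroupOfEquivOfLe hDC).toEquiv,
    Nat.card_zpowers, Nat.card_zpowers, hβ, hδ, mul_one] at h3
  rw [← (CC V).card_mul_index, S.index_CC hu, h3]; ring

end St

/-- invariance under a group of automorphisms -/
def Inv (A : Subgroup (MulAut G)) (H : Subgroup G) : Prop := ∀ α ∈ A, ∀ y ∈ H, α y ∈ H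

/-- the properties of a coprime operator group `A` with fixed points `F` and `[G, A] = G` -/
structure CA (p : ℕ) (A : Subgroup (MulAut G)) (F : Subgroup G) : Prop where
  a1 : F ≤ commutator G
  a2 : ∀ H : Subgroup G, Inv A H → IsMulCommutative H → (∀ v ∈ H, v ^ p = 1 → v ∈ F) → H ≤ F
  a3 : ∀ H : Subgroup G, Inv A H → IsMetacyclic H → ∃ B : Subgroup G, B ⊔ (H ⊓ F) = H ∧
    B ⊓ (H ⊓ F) = ⊥ ∧ (¬ IsMulCommutative H → ¬ H ≤ F → ⁅H, H⁆ ≤ B)

theorem St.map [Finite G] {V : Subgroup G} (S : St p V) (α : MulAut G) :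
    St p (V.map α.toMonoidHom) := by
  have := S.hV.1
  refine ⟨S.hp2, S.hG, S.hr, S.hn.map _ α.surjective, ⟨inferInstance, ?_⟩, ?_⟩
  · rintro _ ⟨v, hv, rfl⟩; rw [← map_pow, S.hV.2 v hv, map_one]
  · rw [card_map_of_injective α.injective, S.hc]

theorem struct [Finite G] [hp : Fact p.Prime] (hp2 : p ≠ 2) (hG : IsPGroup p G)
    (hr : PRankLE p 2 G) {A : Subgroup (MulAut G)} {F : Subgroup G} (h : CA p A F) {x : G}
    (hxF : x ∈ F) (hxZ : x ∈ center G) (hx1 : x ≠ 1) (hxp : x ^ p = 1) :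
    ¬ IsMetacyclic G ∧ (Nat.card G = p ^ 3 ∨ (p = 3 ∧ ∃ k, 2 ≤ k ∧ Nat.card G = p ^ (2 * k + 1) ∧
      ∃ u : G, Nat.card (centralizer ({u} : Set G)) = p ^ 2)) := by
  have := hG.isNilpotent
  have hm : ¬ IsMetacyclic G := fun hm => by
    obtain ⟨B, h1, h2, -⟩ := h.a3 ⊤ (fun _ _ _ _ => mem_top _)
      (H19.isMetacyclic_subgroup hm ⊤)
    rw [top_inf_eq] at h1 h2
    have h3 : B = ⊤ := H19.eq_top_of_sup_commutator
      (eq_top_iff.mpr (h1.ge.trans (sup_le_sup_left h.a1 B)))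
    rw [h3, top_inf_eq] at h2
    exact hx1 (mem_bot.mp (h2 ▸ hxF))
  refine ⟨hm, ?_⟩
  obtain ⟨V, S⟩ := exists_St hp2 hG hr hm
  obtain ⟨u0, hu0⟩ := S.exists_not_CC hm
  have hN := S.CC_normal
  have hZC : center G ≤ CC V := center_le_centralizer _
  have hxZ' : zpowers x = ZZ V :=
    eq_zpowers_of_card (S.card_ZZ hu0) ⟨S.mem_V (hZC hxZ) hxp, hxZ⟩ hx1
  have hZF : ZZ V ≤ F := hxZ' ▸ zpowers_le.mpr hxF
  have sm : ∀ {k : ℕ} {d : G}, 1 ≤ k → d ∈ V → orderOf d = p ^ k → k = 1 := fun hk hd he => by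
    have := (Nat.pow_dvd_pow_iff_le_right hp.out.one_lt).mp (he ▸ (pow_one p).symm ▸
      orderOf_dvd_of_pow_eq_one (S.hV.2 _ hd))
    omega
  by_cases hV : Inv A V
  · have hC : Inv A (CC V) := fun α hα g hg => mem_centralizer_iff.mpr fun v hv => by
      have h1 := congrArg α (comm_of_mem_CC hg (hV _ (inv_mem hα) v hv)).eq
      simpa using h1
    obtain ⟨B, h1, h2, h3⟩ := h.a3 _ hC S.meta_CC
    have hD : CC V ⊓ F ≤ commutator G := inf_le_right.trans h.a1
    have hZD : ZZ V ≤ CC V ⊓ F := le_inf (inf_le_left.trans S.V_le) hZF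
    have hA : IsMulCommutative (CC V) := by
      by_contra hA
      have h4 := h3 hA fun h5 => S.not_CC_le_der hu0 (h5.trans h.a1)
      obtain ⟨t, ht, htZ, hto⟩ := H9.exists_mem_center_orderOf_eq hG (K := ⁅CC V, CC V⁆)
        fun h0 => hA (by
          rw [commutator_eq_bot_iff_le_centralizer] at h0
          exact le_centralizer_iff_isMulCommutative.mp h0)
      have h5 : t = 1 := mem_bot.mp (h2 ▸ ⟨h4 ht, hZD ⟨S.mem_V (hZC htZ)
        (hto ▸ pow_orderOf_eq_one t), htZ⟩⟩)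
      rw [h5, orderOf_one] at hto
      exact hp.out.one_lt.ne hto
    obtain ⟨k, hk, hc, d, hd, hdo⟩ := S.homocyclic hu0 hA h1 h2 hZD hD
    by_cases hk1 : k = 1
    · left; rw [hc, hk1]
    rcases S.main hm with hE | ⟨h3, hu⟩
    · exact (hk1 (sm hk ((S.typeE_der hE).2 (hD hd)) hdo)).elim
    · exact Or.inr ⟨h3, k, by omega, hc, u0, hu u0 hu0⟩
  · left
    simp only [Inv, not_forall] at hV
    obtain ⟨α, -, v, hv, hv'⟩ := hV
    have S' := S.map α
    have hu : α v ∉ CC V := fun hc => hv' (S.mem_V hc (by rw [← map_pow, S.hV.2 v hv, map_one]))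
    have hE : ∀ g, ⁅(α v)⁻¹, g⁆ ∈ ZZ V := fun g => by
      have h1 := S'.comm_mem_ZZ (inv_mem (show α v ∈ V.map α.toMonoidHom from ⟨v, hv, rfl⟩)) g
      exact ⟨S.mem_V (hZC h1.2) (S'.hV.2 _ h1.1), h1.2⟩
    obtain ⟨z, h1, h2, h3, h4⟩ := S.exists_z hu fun g _ => (hE g).1
    have h5 := h4.resolve_right (not_not.mpr (hE z))
    have hA := S.comm_of_gen h1
    have hzC : z ∈ CC V := h1 ▸ mem_sup_right (mem_zpowers z)
    have hz : z ∈ center G := mem_center_iff.mpr fun g => by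
      obtain ⟨c, hc, i, rfl⟩ := H9.mem_sup_zpowers.mp ((S.sup_eq hu).ge (mem_top g))
      have hcz : Commute c z := congrArg Subtype.val (mul_comm' (⟨c, hc⟩ : CC V) ⟨z, hzC⟩)
      rw [commutatorElement_eq_one_iff_commute] at h5
      exact hcz.mul_left ((show Commute (α v) z by simpa using h5).zpow_left i)
    have h6 : center G ≤ F := h.a2 _ (fun β _ y hy => mem_center_iff.mpr fun g => by
      simpa using congrArg β (mem_center_iff.mp hy (β.symm g))) inferInstance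
      fun y hy h7 => hZF ⟨S.mem_V (hZC hy) h7, hy⟩
    have h7 := S.der_le (u := (α v)⁻¹) (by rwa [inv_mem_iff]) h1
    rw [← commutatorElement_inv, h5, inv_one, zpowers_one_eq_bot, sup_bot_eq] at h7
    have h8 : zpowers z = ZZ V := le_antisymm (zpowers_le.mpr (h7 (h.a1 (h6 hz)))) h2
    rw [← h3, ← Nat.card_zpowers, h8, S.card_ZZ hu, pow_succ p 2]

theorem extraspecial_of_cube [Finite G] [hp : Fact p.Prime] (hr : PRankLE p 2 G)
    (hm : ¬ IsMetacyclic G) (hc : Nat.card G = p ^ 3) : IsExtraspecial p G ∧ ∀ y : G, y ^ p = 1 := by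
  have hG : IsPGroup p G := IsPGroup.of_card hc
  have he : ∀ y : G, y ^ p = 1 := fun y => by
    by_contra hy
    obtain ⟨m, hm'⟩ := (IsPGroup.iff_orderOf.mp hG) y
    have h2 : 2 ≤ m := by
      by_contra! h
      exact hy (orderOf_dvd_iff_pow_eq_one.mp (hm' ▸ (pow_dvd_pow p (by omega)).trans
        (pow_one p).dvd))
    have h3 : (zpowers y).index ≤ p := by
      have h4 := (zpowers y).card_mul_index
      rw [Nat.card_zpowers, hm', hc] at h4
      refine Nat.le_of_mul_le_mul_left (c := p ^ 2) ?_ (pow_pos hp.out.pos 2)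
      rw [← pow_succ, ← h4]
      exact Nat.mul_le_mul_right _ (Nat.pow_le_pow_right hp.out.pos h2)
    have hn : (zpowers y).Normal := by
      obtain ⟨j, hj⟩ := hG.index (zpowers y)
      rcases j with _ | _ | j
      · rw [pow_zero, index_eq_one] at hj; rw [hj]; infer_instance
      · exact H9.normal_of_index_eq hG (by simpa using hj)
      · have := Nat.pow_lt_pow_right hp.out.one_lt (show 1 < j + 1 + 1 by omega)
        rw [pow_one] at this; omega
    exact hm ⟨zpowers y, hn, inferInstance, isCyclic_quotient_of_index_le hG _ h3⟩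
  refine ⟨H48.isExtraspecial_of_card_cube hc fun hA => ?_, he⟩
  have := hr ⊤ inferInstance fun a _ => he a
  rw [card_top, hc, Nat.pow_le_pow_iff_right hp.out.one_lt] at this
  omega

end H27.Bb
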