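/- Isolated elements of odd prime order in rank two: the Sylow subgroup. -/
import Cfsg.Agent.H27.Bb6
import Cfsg.Agent.H48.MetaAct
import Cfsg.Agent.S2807

set_option autoImplicit false
set_option linter.unusedSectionVars false

namespace H27.Bb

open Cfsg Subgroup
open scoped commutatorElement

universe u

variable {L : Type u} [Group L] [Finite L] {p : ℕ} [hp : Fact p.Prime] {S A : Subgroup L}

/-- conjugation action of `A` on `S` -/
def cj (hA : A ≤ normalizer (S : Set L)) : A →* MulAut S :=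
  S.normalizerMonoidHom.comp (inclusion hA)

theorem cj_coe (hA : A ≤ normalizer (S : Set L)) (a : A) (s : S) :
    (cj hA a s : L) = a * s * (a : L)⁻¹ := rfl

theorem fix_le_der (hS : IsPGroup p S) (hA : A ≤ normalizer (S : Set L))
    (hcop : (Nat.card A).Coprime p) (hd : S ≤ ⁅S ⊔ A, S ⊔ A⁆) :
    (centralizer (A : Set L)).subgroupOf S ≤ commutator S := by
  classical
  have := Fintype.ofFinite A
  let θ : S →* Abelianization S :=
    ∏ a : A, Abelianization.of.comp (cj hA a).toMonoidHom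
  have θa : ∀ s, θ s = ∏ a : A, Abelianization.of (cj hA a s) := fun s => by
    simp [θ]
  have θi : ∀ (a : A) s, θ (cj hA a s) = θ s := fun a s => by
    rw [θa, θa]
    exact Fintype.prod_equiv (Equiv.mulRight a) _ _ fun b => by simp
  let K := θ.ker.map S.subtype
  have hK : A ≤ normalizer (K : Set L) := H1.le_normalizer_of_conj_mem (by
    rintro a ha _ ⟨k, hk, rfl⟩
    exact ⟨cj hA ⟨a, ha⟩ k, (θi _ _).trans hk, rfl⟩)
  have dec : ∀ {X : Subgroup L}, A ≤ normalizer (X : Set L) → ∀ y ∈ X ⊔ A,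
      ∃ s ∈ X, ∃ a ∈ A, y = s * a := fun {X} hX y hy => by
    have : y ∈ ((X ⊔ A : Subgroup L) : Set L) := hy
    rw [coe_mul_of_right_le_normalizer_left X A hX] at this
    obtain ⟨s, hs, a, ha, rfl⟩ := this
    exact ⟨s, hs, a, ha, rfl⟩
  have h1 : ⁅S ⊔ A, S ⊔ A⁆ ≤ K ⊔ A := commutator_le.mpr fun y hy z hz => by
    obtain ⟨s, hs, a, ha, rfl⟩ := dec hA y hy
    obtain ⟨t, ht, b, hb, rfl⟩ := dec hA z hz
    let a' : A := ⟨a, ha⟩
    let b' : A := ⟨b, hb⟩
    let k : S := ⟨s, hs⟩ * cj hA a' ⟨t, ht⟩ * (cj hA (a' * b' * a'⁻¹) ⟨s, hs⟩)⁻¹ *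
      (cj hA ⁅a', b'⁆ ⟨t, ht⟩)⁻¹
    have e : ⁅s * a, t * b⁆ = k * ((⁅a', b'⁆ : A) : L) := by
      simp only [k, a', b', Subgroup.coe_mul, Subgroup.coe_inv, cj_coe, commutatorElement_def]
      group
    rw [e]
    refine mul_mem (mem_sup_left ⟨k, ?_, rfl⟩) (mem_sup_right (Subtype.mem _))
    change θ k = 1
    simp only [k, map_mul θ, map_inv θ, θi]
    rw [mul_inv_cancel_comm, mul_inv_cancel]
  have hbot : A ⊓ S = ⊥ := (disjoint_of_coprime_natCard (H1.coprime_card_of_isPGroup hS hcop)).eq_bot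
  intro s hs
  obtain ⟨_, ⟨k, hk, rfl⟩, a, ha, he⟩ := dec hK _ (h1 (hd s.2))
  have ha1 : a = 1 := mem_bot.mp (hbot ▸ ⟨ha, by
    have : a = (k : L)⁻¹ * s := by rw [he]; simp
    rw [this]; exact S.mul_mem (S.inv_mem k.2) s.2⟩)
  have h2 : θ s = 1 := by
    rw [ha1, mul_one] at he
    rw [show s = k from Subtype.ext he]; exact hk
  have h3 : ∀ a : A, cj hA a s = s := fun a => Subtype.ext (by
    rw [cj_coe, mem_centralizer_iff.mp (mem_subgroupOf.mp hs) a a.2, mul_inv_cancel_right])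
  rw [θa] at h2
  simp only [h3, Finset.prod_const, Finset.card_univ, Fintype.card_eq_nat_card] at h2
  rw [← Abelianization.ker_of]
  exact H9.eq_one_of_pow_eq_one_of_coprime (hS.to_quotient (commutator S)) hcop h2

theorem ca_of (hp2 : p ≠ 2) (hS : IsPGroup p S) (hA : A ≤ normalizer (S : Set L))
    (hcop : (Nat.card A).Coprime p) (hd : S ≤ ⁅S ⊔ A, S ⊔ A⁆) :
    CA p (cj hA).range ((centralizer (A : Set L)).subgroupOf S) := by
  have nrm : ∀ H : Subgroup S, Inv (cj hA).range H →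
      A ≤ normalizer ((H.map S.subtype : Subgroup L) : Set L) := fun H h =>
    H1.le_normalizer_of_conj_mem (by
      rintro a ha _ ⟨k, hk, rfl⟩
      exact ⟨cj hA ⟨a, ha⟩ k, h _ ⟨_, rfl⟩ k hk, rfl⟩)
  have pg : ∀ H : Subgroup S, IsPGroup p (H.map S.subtype) := fun H => hS.to_le (map_subtype_le H)
  refine ⟨fix_le_der hS hA hcop hd, fun H h1 h2 h3 y hy => ?_, fun H h1 h2 => ?_⟩
  · have h4 := H1.le_centralizer_of_fixes_prime_order (nrm H h1)
      (H1.coprime_card_of_isPGroup (pg H) hcop) (by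
        rintro _ ⟨v, hv, rfl⟩ ho a ha
        refine mem_centralizer_iff.mp (mem_subgroupOf.mp (h3 v hv ?_)) a ha
        obtain ⟨m, hm⟩ := (IsPGroup.iff_orderOf.mp hS) v
        rw [orderOf_injective _ S.subtype_injective, hm] at ho
        rw [← orderOf_dvd_iff_pow_eq_one, hm, (Nat.Prime.pow_eq_iff ho).mp rfl |>.2, pow_one])
    exact mem_subgroupOf.mpr (le_centralizer_iff.mp h4 ⟨y, hy, rfl⟩)
  · obtain ⟨-, h3, h4⟩ := H48.coprime_metacyclic hp2 (pg H)
      (H19.isMetacyclic_of_surjective h2 _ (S.subtype.subgroupMap_surjective H)) hcop (nrm H h1)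
    have hB : ⁅H.map S.subtype, A⁆ ≤ S :=
      (H1.commutator_le_of_le_normalizer (nrm H h1)).trans (map_subtype_le H)
    have e1 : (⁅H.map S.subtype, A⁆.subgroupOf S).map S.subtype = ⁅H.map S.subtype, A⁆ :=
      map_subgroupOf_eq_of_le hB
    have e2 : (H ⊓ (centralizer (A : Set L)).subgroupOf S).map S.subtype =
        H.map S.subtype ⊓ centralizer (A : Set L) := by
      rw [Subgroup.map_inf _ _ _ S.subtype_injective, subgroupOf_map_subtype, inf_comm _ S,
        ← inf_assoc, inf_of_le_left (map_subtype_le H)]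
    refine ⟨⁅H.map S.subtype, A⁆.subgroupOf S, map_injective S.subtype_injective ?_,
      map_injective S.subtype_injective ?_, fun h5 h6 => ?_⟩
    · rw [Subgroup.map_sup, e1, e2]; exact h3.sup
    · rw [Subgroup.map_inf _ _ _ S.subtype_injective, e1, e2, Subgroup.map_bot]; exact h3.inf
    · have h7 := (h4 (fun h => h5 ⟨⟨fun x y => Subtype.ext (Subtype.ext (congrArg
        (fun t : H.map S.subtype => (t : L))
        (mul_comm' (⟨x.1, x.1, x.2, rfl⟩ : H.map S.subtype) ⟨y.1, y.1, y.2, rfl⟩)))⟩⟩)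
        fun h => h6 fun y hy => mem_subgroupOf.mpr (le_centralizer_iff.mp h ⟨y, hy, rfl⟩)).2.2.2.2
      rw [← Subgroup.map_commutator] at h7
      exact map_le_iff_le_comap.mp h7

theorem sylow_struct (hp2 : p ≠ 2) (hr : PRankLE p 2 L) (hL : commutator L = ⊤) (P : Sylow p L)
    {x : L} (hx : x ∈ (P : Subgroup L)) (hx1 : x ≠ 1) (hxp : x ^ p = 1)
    (hN : normalizer ((P : Subgroup L) : Set L) ≤ centralizer {x}) :
    ¬ IsMetacyclic P ∧ (Nat.card P = p ^ 3 ∨ (p = 3 ∧ ∃ k, 2 ≤ k ∧ Nat.card P = p ^ (2 * k + 1) ∧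
      ∃ u : P, Nat.card (centralizer ({u} : Set P)) = p ^ 2)) := by
  have hr' := H48.pRankLE_subgroup hr P
  set N := normalizer ((P : Subgroup L) : Set L) with hNd
  have hPN : (P : Subgroup L) ≤ N := le_normalizer
  have hd : (P : Subgroup L) ≤ ⁅N, N⁆ := by
    by_contra h
    obtain ⟨R, f, hf⟩ := Cfsg.Agent.S2807.result P fun he => h (by
      rw [hL, inf_top_eq] at he
      exact he.le.trans inf_le_right)
    exact not_wp hp2 P.isPGroup' hr' f hf (wp_sylow R)
  have hi : ¬ p ∣ ((P : Subgroup L).subgroupOf N).index := fun h =>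
    P.not_dvd_index (h.trans (relIndex_dvd_index_of_le hPN))
  have hc := ((Nat.Prime.coprime_iff_not_dvd hp.out).mpr hi).symm
  have hP' : IsPGroup p ((P : Subgroup L).subgroupOf N) := P.isPGroup'.of_equiv
    (subgroupOfEquivOfLe hPN).symm
  obtain ⟨A, hA⟩ := exists_right_complement'_of_coprime
    (H1.coprime_card_of_isPGroup hP' hc).symm
  have hAN : A.map N.subtype ≤ N := map_subtype_le A
  have hs : (P : Subgroup L) ⊔ A.map N.subtype = N := by
    have := congrArg (Subgroup.map N.subtype) hA.sup_eq_top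
    rwa [Subgroup.map_sup, map_subgroupOf_eq_of_le hPN, ← MonoidHom.range_eq_map,
      range_subtype] at this
  have hcop : (Nat.card (A.map N.subtype)).Coprime p := by
    rwa [card_map_of_injective N.subtype_injective, ← hA.symm.index_eq_card]
  refine struct hp2 P.isPGroup' hr' (ca_of hp2 P.isPGroup' hAN hcop (hs.symm ▸ hd)) (x := ⟨x, hx⟩)
    (mem_subgroupOf.mpr (mem_centralizer_iff.mpr fun a ha => ?_))
    (mem_center_iff.mpr fun g => Subtype.ext ?_) (fun h => hx1 (congrArg Subtype.val h))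
    (Subtype.ext hxp)
  · exact mem_centralizer_singleton_iff.mp (hN (hAN ha))
  · exact mem_centralizer_singleton_iff.mp (hN (hPN g.2))

end H27.Bb
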