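/- Automorphisms of order `p` of metacyclic `p`-groups. -/
import Cfsg.Agent.H27.Bb4

set_option autoImplicit false
set_option linter.unusedSectionVars false

namespace H27.Bb

open Cfsg Subgroup
open scoped commutatorElement

universe u

variable {G : Type u} [Group G] [Finite G] {p : ℕ} [hp : Fact p.Prime]

/-- `L` a metacyclic subgroup of index `p` without cyclic subgroup of index `p`; `V = Ω₁(L)` -/
structure Mc (p : ℕ) (L V : Subgroup G) : Prop where
  hp2 : p ≠ 2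
  hG : IsPGroup p G
  hi : L.index = p
  hm : IsMetacyclic L
  hnc : ∀ C : Subgroup L, IsCyclic C → C.index ≠ p
  hV : ∀ x, x ∈ V ↔ x ∈ L ∧ x ^ p = 1
  hc : Nat.card V = p ^ 2

namespace Mc

variable {L V : Subgroup G} (M : Mc p L V)
include M

theorem hn : L.Normal := H9.normal_of_index_eq M.hG M.hi

theorem hVn : V.Normal := ⟨fun v hv g => (M.hV _).mpr ⟨M.hn.conj_mem v ((M.hV v).mp hv).1 g, by
  rw [conj_pow, ((M.hV v).mp hv).2]; simp⟩⟩

theorem hVa : IsElementaryAbelian p V :=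
  ⟨H48.isMulCommutative_of_card_le_sq (M.hG.to_subgroup V) M.hc.le, fun v hv => ((M.hV v).mp hv).2⟩

theorem reg : H19.RegAt p 1 L := by
  obtain ⟨a, b, h⟩ := H19.exists_MC M.hm
  exact h.regAt M.hp2 (M.hG.to_subgroup _)

theorem pow_eq_iff {x y : G} (hx : x ∈ L) (hy : y ∈ L) (k : ℕ) :
    x ^ p ^ k = y ^ p ^ k ↔ (x⁻¹ * y) ^ p ^ k = 1 := by
  have := M.reg.pow_eq_pow_iff (M.hG.to_subgroup _) k ⟨x, hx⟩ ⟨y, hy⟩
  rwa [Subtype.ext_iff, Subtype.ext_iff] at this

theorem comm_central {v : G} (hv : v ∈ V) (g : G) : ⁅v, g⁆ ∈ V ∧ ⁅v, g⁆ ∈ center G := by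
  have := M.hVn
  refine ⟨commutator_le_left V ⊤ (commutator_mem_commutator hv (mem_top g)), ?_⟩
  have h := H48.commutator_commutator_top_eq_bot_of_card_le M.hG V M.hc.le
  rw [commutator_eq_bot_iff_le_centralizer] at h
  have h2 := h (commutator_mem_commutator hv (mem_top g))
  exact mem_center_iff.mpr fun y => mem_centralizer_iff.mp h2 y (mem_top y)

theorem exists_pow {v : G} (hv : v ∈ V) : ∃ w ∈ L, v = w ^ p := by
  obtain ⟨hL, hvp⟩ := (M.hV v).mp hv
  have hP := M.hG.to_subgroup L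
  by_contra! h
  have h1 : (⟨v, hL⟩ : L) ∉ Mho p L := fun h2 => by
    obtain ⟨w, -, he⟩ := (M.reg.mem_powerClosure_iff hP).mp h2
    exact h w w.2 (by simpa using congrArg Subtype.val he)
  have hlt : Mho p L < Mho p L ⊔ zpowers ⟨v, hL⟩ :=
    lt_of_le_of_ne le_sup_left fun he => h1 (he ▸ mem_sup_right (mem_zpowers _))
  have h2 := index_le_of_lt hP hlt (m := p) (by
    rw [← sq, index_Mho_of_reg M.reg hP]; exact H48.card_Om_le_of_isMetacyclic M.hp2 hP M.hm)
  have := Subgroup.Normal.of_commutator_le L (le_sup_of_le_left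
    (H48.commutator_le_of_index_le_sq hP (Mho p L) (by
      rw [index_Mho_of_reg M.reg hP]; exact H48.card_Om_le_of_isMetacyclic M.hp2 hP M.hm)) :
      commutator L ≤ Mho p L ⊔ zpowers ⟨v, hL⟩)
  obtain ⟨d, hd⟩ := H48.exists_sup_zpowers_of_isCyclic_quotient
    (isCyclic_quotient_of_index_le hP _ h2)
  have h3 : zpowers d ⊔ zpowers ⟨v, hL⟩ = ⊤ := H3.eq_top_of_sup_eq_top_of_le_frattini
    (Mho_le (H3.pow_mem_frattini_pgroup hP)) (by rw [← hd]; ac_rfl)
  have := M.hVn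
  have hVn : (V.subgroupOf L).Normal := inferInstance
  have h4 := H9.card_sup_mul_card_inf (zpowers d) (V.subgroupOf L)
  have h5 : zpowers d ⊔ V.subgroupOf L = ⊤ :=
    eq_top_iff.mpr (h3.ge.trans (sup_le_sup_left (zpowers_le.mpr (mem_subgroupOf.mpr hv)) _))
  have hVL : V ≤ L := fun x hx => ((M.hV x).mp hx).1
  rw [h5, card_top, Nat.card_congr (subgroupOfEquivOfLe hVL).toEquiv, M.hc,
    ← (zpowers d).card_mul_index, mul_assoc] at h4
  have h6 := Nat.eq_of_mul_eq_mul_left Nat.card_pos h4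
  have h7 : Nat.card ↥(V.subgroupOf L ⊓ zpowers d) ≤ p :=
    H9.card_le_of_le_cyclic (C := zpowers d) inferInstance inf_le_right hp.out.pos fun e he =>
      Subtype.ext ((M.hV _).mp he.1).2
  obtain ⟨j, hj⟩ := hP.index (zpowers d)
  obtain ⟨i, hi⟩ := IsPGroup.iff_card.mp (hP.to_subgroup (V.subgroupOf L ⊓ zpowers d))
  rw [hj, hi, ← pow_add] at h6
  have h8 := Nat.pow_right_injective hp.out.two_le h6
  have h9 : i ≤ 1 := (Nat.pow_le_pow_iff_right hp.out.one_lt).mp (by rwa [← hi, pow_one])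
  rcases Nat.le_one_iff_eq_zero_or_eq_one.mp h9 with rfl | rfl
  · have hd1 : d = 1 := by
      by_contra hd1
      obtain ⟨k, h10, h11⟩ := H9.exists_pow_not_mem_pow_mem hP (N := ⊥) (x := d) hd1
      rw [pow_zero, card_eq_one] at hi
      exact h10 (hi.le ⟨(M.hV _).mpr ⟨(d ^ p ^ k).2, congrArg Subtype.val (mem_bot.mp h11)⟩,
        npow_mem_zpowers _ _⟩)
    rw [hd1, zpowers_one_eq_bot, bot_sup_eq] at h3
    have h10 := card_le_of_le hVL
    rw [← card_top (G := L), ← h3, Nat.card_zpowers, M.hc, sq] at h10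
    have h11 := orderOf_le_of_pow_eq_one hp.out.pos (show (⟨v, hL⟩ : L) ^ p = 1 from Subtype.ext hvp)
    have := lt_mul_of_one_lt_right hp.out.pos hp.out.one_lt
    omega
  · exact M.hnc (zpowers d) inferInstance (by rw [hj, show j = 1 by omega, pow_one])

theorem mem_CC {l : G} (hl : l ∈ L) (h : ∀ g ∈ L, Commute (l ^ p) g) : l ∈ CC V :=
  mem_centralizer_iff.mpr fun v hv => by
    obtain ⟨w, hw, rfl⟩ := M.exists_pow hv
    have := (M.reg.commute_pow_swap (M.hG.to_subgroup _) 1 ⟨l, hl⟩ ⟨w, hw⟩).mp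
      (Subtype.ext (by simpa using (h w hw).eq))
    simpa using (congrArg Subtype.val this).symm

theorem comm_mem {e : G} (he : e ∈ CC V) (hep : e ^ p = 1) {x : G} (hx : x ∈ L) : ⁅x⁻¹, e⁻¹⁆ ∈ V := by
  have hn := M.hn
  have hVn := M.hVn
  have cL : ∀ x ∈ L, e⁻¹ * x * e ∈ L := fun x hx => by simpa using hn.conj_mem x hx e⁻¹
  have eq : ∀ x : G, ⁅x⁻¹, e⁻¹⁆ = x⁻¹ * (e⁻¹ * x * e) := fun x => by
    simp [commutatorElement_def, mul_assoc]
  have cp : ∀ (x : G) (n : ℕ), (e⁻¹ * x * e) ^ n = e⁻¹ * x ^ n * e := fun x n => by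
    simpa using conj_pow (i := n) (a := e⁻¹) (b := x)
  suffices h : ∀ k, ∀ x ∈ L, x ^ p ^ k = 1 → ⁅x⁻¹, e⁻¹⁆ ∈ V by
    obtain ⟨k, hk⟩ := M.hG x
    exact h k x hx hk
  intro k
  induction k with
  | zero => intro x _ h; rw [pow_zero, pow_one] at h; simp [h]
  | succ k ih =>
    intro x hx h
    have hcL : ⁅x⁻¹, e⁻¹⁆ ∈ L := eq x ▸ mul_mem (inv_mem hx) (cL x hx)
    have h1 : x ^ p ^ k ∈ V := (M.hV _).mpr ⟨pow_mem hx _, by rw [← pow_mul, ← pow_succ, h]⟩
    have h2 : ⁅x⁻¹, e⁻¹⁆ ^ p ^ k = 1 := by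
      rw [eq, ← M.pow_eq_iff hx (cL x hx), cp, mul_assoc, (comm_of_mem_CC he h1).eq,
        inv_mul_cancel_left]
    have h3 := ih _ hcL h2
    have hcC : ⁅x⁻¹, e⁻¹⁆ ∈ CC V := by
      rw [commutatorElement_def]
      exact mul_mem (Subgroup.Normal.conj_mem inferInstance _ (inv_mem he) _) (by simpa using he)
    set c := ⁅x⁻¹, e⁻¹⁆ with hc
    set t := ⁅c⁻¹, e⁻¹⁆ with ht
    have h4 : ∀ n : ℕ, (e ^ n)⁻¹ * x * e ^ n = x * c ^ n * t ^ (n.choose 2) := fun n => by
      induction n with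
      | zero => simp
      | succ n ihn =>
        have e1 : (e ^ (n + 1))⁻¹ * x * e ^ (n + 1) = e⁻¹ * ((e ^ n)⁻¹ * x * e ^ n) * e := by group
        have e2 : e⁻¹ * (x * c ^ n * t ^ (n.choose 2)) * e =
            (e⁻¹ * x * e) * (e⁻¹ * c * e) ^ n * (e⁻¹ * (t ^ (n.choose 2) * e)) := by rw [cp]; group
        have e3 : e⁻¹ * x * e = x * c := by rw [hc, eq]; group
        have e4 : e⁻¹ * c * e = c * t := by rw [ht, eq]; group
        rw [e1, ihn, e2, (comm_of_mem_CC he (pow_mem h3 _)).eq, inv_mul_cancel_left, e3, e4,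
          (comm_of_mem_CC hcC h3).symm.mul_pow, Nat.choose_succ_succ' n 1, Nat.choose_one_right,
          pow_add t, pow_succ' c]
        group
    have h5 := h4 p
    rw [hep, H48.pow_eq_one_of_dvd' (M.hVa.2 _ h3) (hp.out.dvd_choose_self two_ne_zero
      (lt_of_le_of_ne hp.out.two_le (Ne.symm M.hp2)))] at h5
    exact (M.hV _).mpr ⟨hcL, by simpa using h5⟩

theorem der_le_Mho : commutator L ≤ Mho p L :=
  H48.commutator_le_of_index_le_sq (M.hG.to_subgroup _) (Mho p L) (by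
    rw [index_Mho_of_reg M.reg (M.hG.to_subgroup _)]
    exact H48.card_Om_le_of_isMetacyclic M.hp2 (M.hG.to_subgroup _) M.hm)

theorem index_Mho : (Mho p L).index = p ^ 2 := by
  have hVL : V ≤ L := fun x hx => ((M.hV x).mp hx).1
  rw [index_Mho_of_reg M.reg (M.hG.to_subgroup _)]
  refine le_antisymm (H48.card_Om_le_of_isMetacyclic M.hp2 (M.hG.to_subgroup _) M.hm) ?_
  rw [← M.hc, ← Nat.card_congr (subgroupOfEquivOfLe hVL).toEquiv]
  exact card_le_of_le fun v hv => H48.mem_Om (Subtype.ext (M.hVa.2 _ hv))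

theorem not_max {e : G} (heL : e ∉ L) (he : e ∈ CC V) (hep : e ^ p = 1) :
    (commutator G).index ≠ p ^ 2 := by
  have hn := M.hn
  set K := (Mho p L).map L.subtype
  have hKn : K.Normal := ConjAct.normal_of_characteristic_of_normal
  have h1 : commutator G ≤ K := by
    rw [commutator_def, commutator_le]
    refine fun s _ t _ => H9.commutatorElement_mem_of_sup_zpowers_eq_top (C := L) (x := e) ?_
      (H9.sup_zpowers_eq_top_of_index M.hG M.hi heL) s t
    intro x hx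
    refine H9.mem_centralMod.mpr fun g => ?_
    have h2 : (⊤ : Subgroup G) ≤ (centralizer {((x : G) : G ⧸ K)}).comap (QuotientGroup.mk' K) := by
      rw [← H9.sup_zpowers_eq_top_of_index M.hG M.hi (inv_mem_iff.not.mpr heL)]
      refine sup_le (fun y hy => ?_) (zpowers_le.mpr ?_)
      · refine mem_centralizer_singleton_iff.mpr (commutatorElement_eq_one_iff_mul_comm.mp ?_)
        exact (QuotientGroup.eq_one_iff (⁅y, x⁆ : G)).mpr ⟨⁅⟨y, hy⟩, ⟨x, hx⟩⁆,
          M.der_le_Mho (commutator_mem_commutator (mem_top _) (mem_top _)), rfl⟩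
      · refine mem_centralizer_singleton_iff.mpr (commutatorElement_eq_one_iff_mul_comm.mp ?_).symm
        obtain ⟨w, hw, h3⟩ := M.exists_pow (M.comm_mem he hep (inv_mem hx))
        rw [inv_inv] at h3
        exact (QuotientGroup.eq_one_iff (⁅x, e⁻¹⁆ : G)).mpr ⟨_, pow_mem_Mho ⟨w, hw⟩, h3.symm⟩
    exact (QuotientGroup.eq_one_iff (⁅x, g⁆ : G)).mp (commutatorElement_eq_one_iff_mul_comm.mpr
      (mem_centralizer_singleton_iff.mp (h2 (mem_top g))).symm)
  intro h
  have h2 := index_antitone h1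
  rw [h, index_map_subtype, M.index_Mho, M.hi] at h2
  have := lt_mul_of_one_lt_right (pow_pos hp.out.pos 2) hp.out.one_lt
  omega

theorem max_of {a : G} (haL : a ∉ L) (ha : a ∉ CC V) (hap : a ^ p = 1) :
    p = 3 ∧ Nat.card (centralizer ({a} : Set G)) = p ^ 2 := by
  have hn := M.hn
  have hVn := M.hVn
  have hVL : V ≤ L := fun x hx => ((M.hV x).mp hx).1
  have hr : PRankLE p 2 G := fun E hE hEe => by
    by_contra! hlt
    have h1 : E ⊓ L ≤ V := fun x hx => (M.hV x).mpr ⟨hx.2, hEe x hx.1⟩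
    have h2 := (L.subgroupOf E).card_mul_index
    rw [← inf_subgroupOf_left, Nat.card_congr (subgroupOfEquivOfLe inf_le_left).toEquiv,
      inf_subgroupOf_left] at h2
    have h3 : (L.subgroupOf E).index ≤ p :=
      Nat.le_of_dvd hp.out.pos (M.hi ▸ relIndex_dvd_index_of_normal _ E)
    have h4 : E ⊓ L = V := by
      by_contra h
      have h5 := H9.mul_card_le_of_lt M.hG (lt_of_le_of_ne h1 h)
      have h6 := Nat.mul_le_mul_left (Nat.card ↥(E ⊓ L)) h3
      rw [M.hc] at h5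
      rw [h2, mul_comm] at h6
      omega
    obtain ⟨e, he, heL⟩ := SetLike.not_le_iff_exists.mp (show ¬ E ≤ L from fun h => by
      rw [inf_of_le_left h] at h4; rw [h4, M.hc] at hlt; omega)
    have heC : e ∈ CC V := mem_centralizer_iff.mpr fun v hv =>
      congrArg Subtype.val (mul_comm' (⟨v, (h4.ge hv).1⟩ : E) ⟨e, he⟩)
    obtain ⟨l, hl, j, rfl⟩ := H9.mem_sup_zpowers.mp
      ((H9.sup_zpowers_eq_top_of_index M.hG M.hi heL).ge (mem_top a))
    have hj : (e ^ j) ^ p = 1 := hEe _ (zpow_mem he j)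
    have hc : ⁅(e ^ j)⁻¹, l⁻¹⁆ ∈ V := by
      rw [← commutatorElement_inv]; exact inv_mem (M.comm_mem (zpow_mem heC j) hj hl)
    have h5 := H48.mul_pow_of_class_three (x := l) (y := e ^ j) (c := ⁅(e ^ j)⁻¹, l⁻¹⁆)
      (d := ⁅⁅(e ^ j)⁻¹, l⁻¹⁆⁻¹, l⁻¹⁆) (e := 1)
      (by simp only [commutatorElement_def]; group) (by simp only [commutatorElement_def]; group)
      (by rw [mul_one]; exact comm_of_mem_CC (zpow_mem heC j) hc) (M.comm_central (inv_mem hc) _).2
      (one_mem _) p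
    rw [hap, hj, H48.pow_eq_one_of_dvd' (M.hVa.2 _ hc) (hp.out.dvd_choose_self two_ne_zero
      (lt_of_le_of_ne hp.out.two_le (Ne.symm M.hp2))), one_pow, mul_one, mul_one, mul_one] at h5
    refine ha (mul_mem (M.mem_CC hl fun g _ => ?_) (zpow_mem heC j))
    rw [eq_inv_of_mul_eq_one_left h5.symm]
    exact (mem_center_iff.mp (inv_mem (pow_mem (M.comm_central (inv_mem hc) _).2 _)) g).symm
  have S : St p V := ⟨M.hp2, M.hG, hr, hVn, M.hVa, M.hc⟩
  have hm : ¬ IsMetacyclic G := fun hm => by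
    have h1 := H48.card_Om_le_of_isMetacyclic M.hp2 M.hG hm
    have h2 : V = H48.Om p G := eq_of_le_of_card_le (fun v hv => H48.mem_Om (M.hVa.2 v hv))
      (M.hc ▸ h1)
    exact haL (hVL (h2 ▸ H48.mem_Om hap))
  rcases S.main hm with hE | ⟨h3, h⟩
  · exfalso
    by_cases hL : L ≤ CC V
    · have h1 : L = CC V := eq_of_le_of_card_le hL (Nat.eq_of_mul_eq_mul_right hp.out.pos
        (by rw [← S.index_CC ha, card_mul_index, S.index_CC ha, ← M.hi, card_mul_index])).le
      obtain ⟨x, hx, -, hE⟩ := hE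
      obtain ⟨z, h2, -, h3, -⟩ := S.exists_z hx hE
      have hz : z ∈ L := h1 ▸ h2 ▸ mem_sup_right (mem_zpowers z)
      refine M.hnc (zpowers ⟨z, hz⟩) inferInstance ?_
      have h4 := (zpowers (⟨z, hz⟩ : L)).card_mul_index
      rw [Nat.card_zpowers, ← orderOf_coe] at h4
      rw [← L.card_mul_index, M.hi, ← h4, sq] at h3
      refine Nat.eq_of_mul_eq_mul_left (orderOf_pos z) (Nat.eq_of_mul_eq_mul_right hp.out.pos ?_)
      rw [← h3]; ring
    · obtain ⟨l, hl, hlC⟩ := SetLike.not_le_iff_exists.mp hL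
      refine hlC (M.mem_CC hl fun g hg => ?_)
      have h1 := (M.reg.commute_pow_iff (M.hG.to_subgroup _) 1 ⟨l, hl⟩ ⟨g, hg⟩).mpr
        (Subtype.ext (by
          rw [pow_one]
          exact M.hVa.2 _ ((S.typeE_der hE).2 (commutator_mem_commutator (mem_top l) (mem_top g)))))
      exact (show l ^ p * g = g * l ^ p by simpa using congrArg Subtype.val h1.eq)
  · exact ⟨h3, h a ha⟩

end Mc

end H27.Bb
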