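/- CKS (S2193), job Cnt: the number of long root elements (blueprints/CKO.md). -/
import Cfsg.Agent.H66.CKOSpec

set_option autoImplicit false

namespace H27.CK
open Module MulAction QuadraticMap H56 H60 H66.CK Submodule

theorem ncard_fib {α β : Type*} [Finite α] [Finite β] {T : Set α} {S : Set β} (f : α → β) {k : ℕ}
    (h1 : ∀ x ∈ T, f x ∈ S) (h2 : ∀ s ∈ S, {x | x ∈ T ∧ f x = s}.ncard = k) :
    T.ncard = S.ncard * k := by
  classical
  have := Fintype.ofFinite α
  have := Fintype.ofFinite β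
  rw [Set.ncard_eq_toFinset_card', Set.ncard_eq_toFinset_card', Finset.card_eq_sum_card_fiberwise
    (f := f) (t := S.toFinset) (fun x hx => by simpa using h1 x (by simpa using hx)),
    Finset.sum_const_nat fun s hs => ?_]
  rw [← h2 s (by simpa using hs), Set.ncard_eq_toFinset_card']
  congr 1
  ext x
  simp

theorem jobCnt : JobCnt := by
  intro F V _ _ _ _ _ Q hQ a b ha hb
  have : Finite V := Module.finite_of_finite F
  let T : Set (V × V) :=
    {p | p.1 ≠ 0 ∧ Q p.1 = 0 ∧ Q p.2 = 0 ∧ polar Q p.1 p.2 = 0 ∧ eich Q p.1 p.2 ≠ 1}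
  have line : ∀ x y : V, x ≠ 0 → (Set.range fun c : F => y + c • x).ncard = Fintype.card F := fun x y h => by
    rw [Set.ncard_range_of_injective fun c d e => smul_left_injective F h (add_left_cancel e),
      Nat.card_eq_fintype_card]
  have pr : ∀ (x : V) (P : V × V → Prop), {p | P p ∧ p.1 = x}.ncard = {y | P (x, y)}.ncard := fun x P => by
    rw [← Set.ncard_image_of_injective {y | P (x, y)} (Prod.mk_right_injective x)]
    congr 1
    ext ⟨u, v⟩
    simp only [Set.mem_ofPred_eq, Set.mem_image, Prod.mk.injEq]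
    exact ⟨fun ⟨h, e⟩ => ⟨v, e ▸ h, e.symm, rfl⟩, fun ⟨_, h, e, e'⟩ => ⟨e ▸ e' ▸ h, e.symm⟩⟩
  have h1 : T.ncard = a * b := by
    have ca : {x : V | x ≠ 0 ∧ Q x = 0}.ncard = a := by
      have := Set.ncard_sdiff_singleton_add_one (s := {x : V | Q x = 0}) (a := 0) (map_zero Q)
      rw [← Nat.card_coe_set_eq {x : V | Q x = 0}] at this
      rw [← Nat.add_right_cancel (this.trans ha)]
      congr 1
      ext x
      simp [and_comm]
    rw [← ca]
    refine ncard_fib Prod.fst (fun p hp => ⟨hp.1, hp.2.1⟩) fun x ⟨x0, qx⟩ => ?_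
    obtain ⟨f, h⟩ := exists_isHyp hQ x0 qx
    rw [card_Q_eq h 0] at hb
    have c1 : {y | Q y = 0 ∧ polar Q x y = 0}.ncard =
        Nat.card {u : hperp Q x f // Q u = 0} * Fintype.card F := by
      refine ncard_fib (S := {u : hperp Q x f | Q u = 0}) (fun y => (h.equiv.symm y).1) (fun y hy => ?_)
        fun u hu => ?_
      · have := h.Q_equiv (h.equiv.symm y)
        rw [h.equiv.apply_symm_apply, hy.1, QuadraticMap.prod_apply, hypQ_apply,
          show (h.equiv.symm y).2.2 = 0 from hy.2, mul_zero, add_zero] at this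
        exact this.symm
      · rw [← line x u x0]
        congr 1
        ext y
        constructor
        · rintro ⟨hy, rfl⟩
          refine ⟨(h.equiv.symm y).2.1, ?_⟩
          conv_rhs => rw [← h.equiv.apply_symm_apply y, h.equiv_apply,
            show (h.equiv.symm y).2.2 = 0 from hy.2, zero_smul, add_zero]
        · rintro ⟨c, rfl⟩
          have m := mem_hperp.1 u.2
          have e : (u : V) + c • x = h.equiv (u, c, 0) := by simp [h.equiv_apply]
          exact ⟨⟨by simp [Q_add, Q_smul, qx, pc m.1, show Q u = 0 from hu], by simp [m.1, h.ee]⟩, by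
            beta_reduce; rw [e, h.equiv.symm_apply_apply]⟩
    have c2 := Set.ncard_sdiff_add_ncard_of_subset (t := {y | Q y = 0 ∧ polar Q x y = 0})
      (s := Set.range fun c : F => 0 + c • x) (by
        rintro _ ⟨c, rfl⟩
        exact ⟨by simp [Q_smul, qx], by simp [h.ee]⟩)
    rw [c1, line x 0 x0, mul_comm] at c2
    rw [pr x (· ∈ T), show b = _ from (by omega : b = ({y | Q y = 0 ∧ polar Q x y = 0} \
      Set.range fun c : F => 0 + c • x).ncard)]
    congr 1
    ext y
    simp only [T, Set.mem_ofPred_eq, Set.mem_sdiff, Set.mem_range, zero_add]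
    exact ⟨fun ⟨_, _, q, p, n⟩ => ⟨⟨q, p⟩, fun ⟨c, e⟩ => n (by rw [← e, eich_smul_self c qx])⟩,
      fun ⟨⟨q, p⟩, n⟩ => ⟨x0, qx, q, p, fun e => n
        ((exists_smul_of_eich_eq_one hQ x0 qx p e).imp fun _ => Eq.symm)⟩⟩
  rw [← h1, mul_comm]
  refine (ncard_fib (T := T) (S := LR Q) (fun p => eich Q p.1 p.2) (fun p hp => ⟨hp.2.2.2.2, _, _, hp.2.1,
    hp.2.2.1, hp.2.2.2.1, rfl⟩) ?_).symm
  rintro _ ⟨n, x₀, y₀, qx, qy, p, rfl⟩
  have x0 : x₀ ≠ 0 := fun e => n (by rw [e, eich_zero_left])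
  have L := isTL_span (ind_of_eich_ne_one x0 qx n) qx qy p
  have zL := eich_mem_XG (Q := Q) (left_mem_span_pair (F := F) x₀ y₀) (right_mem_span_pair x₀ y₀)
  have cL : ((span F {x₀, y₀} : Set V) \ {0}).ncard = Fintype.card F ^ 2 - 1 := by
    rw [Set.ncard_sdiff_singleton_of_mem (zero_mem (span F {x₀, y₀})), ← Nat.card_coe_set_eq,
      SetLike.coe_sort_coe, Module.natCard_eq_pow_finrank (K := F), L.dim, Nat.card_eq_fintype_card]
  rw [mul_comm, ← cL]
  refine ncard_fib Prod.fst (fun p hp => ⟨(mem_of_eich_mem_XG hQ hp.1.2.1 hp.1.2.2.2.1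
    (ind_of_eich_ne_one hp.1.1 hp.1.2.1 hp.1.2.2.2.2) (hp.2 ▸ zL)).1, hp.1.1⟩) fun x ⟨xL, x0⟩ => ?_
  obtain ⟨y, yL, e⟩ := L.exists_eq_eich hQ xL x0 zL
  have qx := L.sing x xL
  have p := L.polar xL yL
  refine (pr x fun p => p ∈ T ∧ eich Q p.1 p.2 = eich Q x₀ y₀).trans ?_
  rw [← line x y x0]
  congr 1
  ext y'
  constructor
  · rintro ⟨h, e'⟩
    obtain ⟨c, hc⟩ := exists_smul_of_eich_eq hQ x0 qx h.2.2.2.1 p (e'.trans e)
    exact ⟨c, (sub_eq_iff_eq_add'.1 hc).symm⟩
  · rintro ⟨c, rfl⟩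
    have m := add_mem yL (smul_mem _ c xL)
    have e' := (eich_add_smul_self c qx p).trans e.symm
    exact ⟨⟨x0, qx, L.sing _ m, L.polar xL m, e' ▸ n⟩, e'⟩

end H27.CK
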