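/- CKS (S2193), job OddB (blueprints/CKO.md). -/
import Cfsg.Agent.H66.CKOSpec

set_option autoImplicit false

namespace H27.CK
open Module MulAction QuadraticMap H56 H60 H66.CK Submodule

theorem jobOddB : JobOddB := by
  intro HZ F V Ω _ _ _ _ _ Q _ _ _ hQ h2 d7 hn ef
  classical
  have : Finite V := Module.finite_of_finite F
  obtain ⟨p, _⟩ := CharP.exists F
  obtain ⟨r, pp, hr⟩ := FiniteField.card F p
  have : Fact p.Prime := ⟨pp⟩
  have q1 : 1 < Fintype.card F := Fintype.one_lt_card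
  obtain ⟨S⟩ : Nonempty (Sylow p (EG Q)) := inferInstance
  have tr := sylow_trans (k := r * (finrank F V - 1)) (by rw [hn, hr, pow_mul]) S
  obtain ⟨e, e', li, qe, -, -, Se, -⟩ := exists_fixed_flag hQ (by omega) S.2
    ((EG Q).subtype.comp (S : Subgroup (EG Q)).subtype)
  have e0 : e ≠ 0 := li.ne_zero 0
  obtain ⟨f, h⟩ := exists_isHyp hQ e0 qe
  let A : Subgroup (EG Q) :=
    { carrier := {g | ∃ v, polar Q e v = 0 ∧ g.1 = eich Q e v}
      one_mem' := ⟨0, by simp, by simp⟩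
      mul_mem' := by
        rintro a b ⟨v, hv, ea⟩ ⟨w, hw, eb⟩
        exact ⟨v + w, by simp [hv, hw], by rw [Subgroup.coe_mul, ea, eb, eich_add qe hv hw]⟩
      inv_mem' := by
        rintro a ⟨v, hv, ea⟩
        exact ⟨-v, by simp [hv], by rw [Subgroup.coe_inv, ea, eich_neg]⟩ }
  have Ae : ∀ a ∈ A, a.1 e = e := fun a ⟨v, hv, ea⟩ => by rw [ea, eich_apply_self qe hv]
  have An : ∀ g : EG Q, g.1 e = e → ∀ a ∈ A, g * a * g⁻¹ ∈ A := fun g ge a ⟨v, hv, ea⟩ =>
    ⟨g.1 v, by rw [← ge, O.map_polar, hv], by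
      rw [Subgroup.coe_mul, Subgroup.coe_mul, Subgroup.coe_inv, ea, conj_eich, ge]⟩
  have dU := h.finrank_hperp
  have cA : Nat.card A = Fintype.card F ^ (finrank F V - 2) := by
    rw [← dU, Nat.add_sub_cancel, ← Nat.card_eq_fintype_card, ← Module.natCard_eq_pow_finrank]
    refine (Nat.card_eq_of_bijective (fun u : hperp Q e f =>
      (⟨⟨_, eich_mem_EG e u⟩, u, u.2.1, rfl⟩ : A)) ⟨fun u u' k => ?_, ?_⟩).symm
    · obtain ⟨c, hc⟩ := exists_smul_of_eich_eq hQ e0 qe u.2.1 u'.2.1 (congrArg (fun a : A => a.1.1) k)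
      have := congrArg (polar Q f) hc
      simp only [polar_sub_right, (mem_hperp.1 u.2).2, (mem_hperp.1 u'.2).2, polar_smul_right, h.fe,
        sub_self, smul_eq_mul, mul_one] at this
      rw [← this, zero_smul, sub_eq_zero] at hc
      exact Subtype.ext hc
    · rintro ⟨a, v, hv, ea⟩
      refine ⟨⟨_, h.polar_proj v⟩, Subtype.ext (Subtype.ext ?_)⟩
      simp only [ea, hv, zero_smul, sub_zero]
      rw [sub_eq_add_neg, ← neg_smul, eich_add_smul_self _ qe hv]
  have cO : Nat.card (orbitRel.Quotient A Ω) = Fintype.card F := by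
    have := Nat.card_congr (selfEquivOrbitsQuotientProd (G := A) (X := Ω) fun b =>
      (Subgroup.eq_bot_iff_forall _).2 fun ⟨a, v, hv, ea⟩ k =>
        Subtype.ext (Subtype.ext (ea.trans (ef b e v qe hv (ea ▸ coe_mem_St.2 k)))))
    rw [Nat.card_prod, cA, hn, show finrank F V - 1 = finrank F V - 2 + 1 by omega, pow_succ'] at this
    exact (Nat.eq_of_mul_eq_mul_right (by positivity) this).symm
  let M : Ω → Subgroup (EG Q) := fun b =>
    { carrier := {g | g.1 e = e ∧ ∃ a ∈ A, g • b = a • b}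
      one_mem' := ⟨rfl, 1, one_mem _, rfl⟩
      mul_mem' := by
        rintro g k ⟨ge, a, ha, ea⟩ ⟨ke, a', ha', eb⟩
        exact ⟨by rw [Subgroup.coe_mul, O.mul_apply, ke, ge], _, mul_mem (An g ge a' ha') ha, by
          rw [mul_smul, eb, mul_smul, ← ea, mul_smul, mul_smul, inv_smul_smul]⟩
      inv_mem' := by
        rintro g ⟨ge, a, ha, ea⟩
        have ge' : (g⁻¹).1 e = e := by rw [Subgroup.coe_inv, O.inv_apply_eq, ge]
        exact ⟨ge', _, An _ ge' _ (inv_mem ha), by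
          rw [inv_inv, mul_smul, mul_smul, ea, inv_smul_smul]⟩ }
  have long : ∀ b x y, polar Q x e = 0 → polar Q y e = 0 → x ≠ 0 → Q x = 0 → Q y = 0 → polar Q x y = 0 →
      eich Q x y ∈ (M b).map (EG Q).subtype := fun b x y xe ye x0 qx qy xy => by
    by_cases n : eich Q x y = 1
    · exact n ▸ one_mem _
    obtain ⟨x', y', fr⟩ := H26.TSP.exists_frm hQ ⟨qx, qy, xy, x0, ne_smul_of_ind (ind_of_eich_ne_one x0 qx n)⟩
    rw [← one_smul F y, ← fr.mem_Ro]
    by_contra nm
    have := Fintype.ofFinite (orbitRel.Quotient A Ω)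
    have fx : ∀ v : V × V, v.1 ∈ H26.fU Q x y x' y' ⊓ ort Q e → v.2 ∈ H26.fU Q x y x' y' ⊓ ort Q e → ∀ t,
        H26.ee Q x y v t e = e := fun v a1 a2 t => by
      obtain ⟨b1, b2, b3, b4⟩ := H26.Frm.inL a1.1 a2.1
      rw [H26.ee, O.mul_apply, eich_apply_of_orth qy b4 ye, pc a2.2, zero_smul, add_zero,
        eich_apply_of_orth qx (by simp [b1, xy]) xe]
      simp [pc a1.2, ye]
    have key := HZ F V _ Q hQ x y x' y' fr ((M b).map (EG Q).subtype) _ (inf_le_left (b := ort Q e))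
      (fun k => nm (k.ge trivial))
      (fun v t => (Quotient.mk'' ((⟨_, H26.ee_mem_EG x y v t⟩ : EG Q) • b) : orbitRel.Quotient A Ω))
      Finset.univ (fun _ _ _ _ => Finset.mem_univ _) fun v v' a1 a2 a3 a4 t t' k => by
        obtain ⟨a, ea⟩ := orbitRel_apply.1 (Quotient.exact' k.symm)
        set g : EG Q := ⟨_, H26.ee_mem_EG x y v t⟩
        set g' : EG Q := ⟨_, H26.ee_mem_EG x y v' t'⟩
        have ge : (g⁻¹).1 e = e := by rw [Subgroup.coe_inv, O.inv_apply_eq, fx v a1 a2 t]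
        refine ⟨g⁻¹ * g', ⟨?_, _, An _ ge _ a.2, ?_⟩, rfl⟩
        · rw [Subgroup.coe_mul, O.mul_apply, fx v' a3 a4 t', ge]
        · rw [inv_inv, mul_smul, mul_smul, mul_smul, ← ea]; rfl
    have lt : Nat.card (fr.Ro ((M b).map (EG Q).subtype)) < Fintype.card F := by
      rw [← Nat.card_eq_fintype_card]
      exact Finite.card_subtype_lt nm
    have d1 := finrank_le_inf_ort (Q := Q) ⊤ x
    have d2 := finrank_le_inf_ort (Q := Q) (⊤ ⊓ ort Q x) x'
    have d3 := finrank_le_inf_ort (Q := Q) (⊤ ⊓ ort Q x ⊓ ort Q x') y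
    have d4 := finrank_le_inf_ort (Q := Q) (⊤ ⊓ ort Q x ⊓ ort Q x' ⊓ ort Q y) y'
    have d5 := finrank_le_inf_ort (Q := Q) (H26.fU Q x y x' y') e
    rw [finrank_top] at d1
    change _ ≤ finrank F (H26.fU Q x y x' y') + 1 at d4
    rw [Finset.card_univ, ← Nat.card_eq_fintype_card (α := orbitRel.Quotient A Ω), cO] at key
    have k2 := (Nat.pow_le_pow_right q1.le (by omega : finrank F V - 4 + 1 + 1 ≤ _)).trans key
    rw [pow_succ', pow_succ] at k2
    exact absurd (Nat.le_of_mul_le_mul_left (Nat.le_of_mul_le_mul_left k2 (by omega)) (by positivity))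
      lt.not_ge
  have hU := h.nondeg_hperp hQ
  have ext : ∀ b, EG (Q.restrict (hperp Q e f)) ≤ ((M b).map (EG Q).subtype).comap (extO hQ hU) := fun b =>
    EG_le_of_long (idx2_of_five_le hU.restrict (by omega)) fun u v u0 qu qv uv => by
      rw [Subgroup.mem_comap, extO_eich]
      exact long b u v (pc u.2.1) (pc v.2.1) (fun k => u0 (Subtype.ext k)) qu qv
        ((polar_restrict' u v).symm.trans uv)
  have SM : ∀ b, (S : Subgroup (EG Q)) ≤ M b := fun b g hg => by
    have ge : g.1 e = e := Se ⟨g, hg⟩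
    have pe : polar Q e (g.1 f) = 1 := by rw [← ge, O.map_polar, h.ef]
    obtain ⟨v, hv⟩ := h.exists_eich_apply (x := g.1 f) (pe ▸ one_ne_zero)
    rw [O.map_Q, h.qf, pe, zero_div, zero_smul, one_smul, zero_add] at hv
    obtain ⟨a, ha, af⟩ : ∃ a ∈ A, a.1 (g.1 f) = f := by
      by_cases c : polar Q e v = 0
      · exact ⟨⟨_, eich_mem_EG e v⟩, ⟨v, c, rfl⟩, hv⟩
      · exact ⟨1, one_mem _, by rwa [eich_of_not fun k => c k.2] at hv⟩
    obtain ⟨k, hk⟩ := exists_extO hQ hU (g := (a * g).1) fun x hx => by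
      obtain ⟨⟨u, s, t⟩, rfl⟩ := h.equiv.surjective x
      have u0 : (u : V) = 0 := hU _ u.2 fun y hy => by
        simpa [h.equiv_apply, pc (mem_hperp.1 hy).1, pc (mem_hperp.1 hy).2] using hx y hy
      simp [h.equiv_apply, u0, ge, Ae a ha, af]
    have k4 : (a * g) ^ 4 ∈ M b := by
      have := Subgroup.pow_index_mem (commutator _) k
      rw [index_commutator_of_two_ne hU.restrict h2 (by omega),
        commutator_eq_EOin hU.restrict (by omega)] at this
      obtain ⟨l, hl, el⟩ := ext b this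
      rwa [show (a * g) ^ 4 = l from Subtype.ext (by rw [Subgroup.coe_pow, ← hk, ← map_pow, ← el]; rfl)]
    have AM : A ≤ M b := fun a ha => ⟨Ae a ha, a, ha, rfl⟩
    have g1 := An g ge a ha
    have g2 := An g ge _ g1
    have g4 : g ^ 4 ∈ M b := by
      rw [show (a * g) ^ 4 = a * (g * a * g⁻¹) * (g * (g * a * g⁻¹) * g⁻¹) *
        (g * (g * (g * a * g⁻¹) * g⁻¹) * g⁻¹) * g ^ 4 by simp only [pow_succ]; group] at k4
      exact (Subgroup.mul_mem_cancel_left _
        (AM (mul_mem (mul_mem (mul_mem ha g1) g2) (An g ge _ g2)))).1 k4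
    obtain ⟨j, hj⟩ := IsPGroup.iff_orderOf.1 S.2 ⟨g, hg⟩
    refine Subgroup.zpowers_le.2 g4 (mem_zpowers_pow_iff.2 ?_)
    rw [← Subgroup.orderOf_coe] at hj
    rw [show orderOf g = p ^ j from hj]
    refine Nat.Coprime.pow 2 j ((Nat.coprime_primes Nat.prime_two pp).2 fun k => h2 ?_)
    exact_mod_cast k ▸ CharP.cast_eq_zero F p
  have : Nonempty Ω := (Nat.card_pos_iff.1 (by rw [hn]; positivity)).1
  have : Subsingleton (orbitRel.Quotient A Ω) := ⟨fun a b => Quotient.inductionOn₂' a b fun a b => by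
    obtain ⟨u, hu, rfl⟩ := tr b a
    obtain ⟨-, c, hc, k⟩ := SM b hu
    exact Quotient.sound' (orbitRel_apply.2 ⟨⟨c, hc⟩, k.symm⟩)⟩
  have := Finite.card_le_one_iff_subsingleton.2 this
  omega

end H27.CK
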