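import Cfsg.Agent.H56.DgSpec

/-! Tower DG (S5732): slots Fpf, Pair. -/

set_option autoImplicit false

namespace H27.Dg

open Subgroup H56.DG Finset
open scoped commutatorElement

universe u

theorem smul_prod_pow {H V : Type u} [Group H] [CommGroup V] [MulDistribMulAction H V] {g : H}
    {q : ℕ} (hg : g ^ q = 1) (w : V) :
    g • ∏ j ∈ range q, g ^ j • w = ∏ j ∈ range q, g ^ j • w := by
  rw [smul_prod']
  simp only [← mul_smul, ← pow_succ']
  have h := prod_range_succ' (fun j => g ^ j • w) q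
  rw [prod_range_succ, hg, pow_zero] at h
  exact (mul_right_cancel h).symm

theorem jobFpf : JobFpf.{u} := by
  intro H V _ _ _ _ _ q a b W hq cop cm ha hb fa hW aW bW
  by_contra hn
  push Not at hn
  obtain ⟨⟨w, hw⟩, w1⟩ := ne_bot_iff_exists_ne_one.1 hW
  have pw : ∀ g : H, (∀ w ∈ W, g • w ∈ W) → ∀ j : ℕ, ∀ w ∈ W, g ^ j • w ∈ W := fun g hg j => by
    induction j with
    | zero => simp
    | succ j ih => exact fun w hw => by rw [pow_succ, mul_smul]; exact ih _ (hg w hw)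
  have h1 : ∀ i : ℕ, ∏ j ∈ range q, (b * a ^ i) ^ j • w = 1 := fun i => by
    by_contra c
    refine hn i _ (prod_mem fun j _ => pw _ (fun w hw => ?_) j w hw) c (smul_prod_pow ?_ w)
    · rw [mul_smul]; exact bW _ (pw a aW i w hw)
    · rw [(cm.symm.pow_right i).mul_pow, hb, ← pow_mul, mul_comm i, pow_mul, ha, one_pow, one_mul]
  have h2 : ∏ j ∈ range q, ∏ i ∈ range q, (a ^ j) ^ i • b ^ j • w = 1 := by
    rw [prod_comm]
    refine prod_eq_one fun i _ => (prod_congr rfl fun j _ => ?_).trans (h1 i)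
    rw [(cm.symm.pow_right i).mul_pow, ← mul_smul, ← pow_mul, ← pow_mul, mul_comm j,
      (cm.pow_pow _ _).eq]
  rw [prod_eq_single 0 (fun j hj j0 => ?_) (by simp [hq.ne_zero])] at h2
  · simp only [pow_zero, one_pow, one_smul, prod_const, card_range] at h2
    exact w1 (Subtype.ext (orderOf_eq_one_iff.1 (Nat.eq_one_of_dvd_coprimes cop
      (orderOf_dvd_of_pow_eq_one h2) (orderOf_dvd_natCard w))))
  · refine Fpf.of_mem_zpowers fa (mem_zpowers_pow_iff.2 ?_) _
      (smul_prod_pow (by rw [← pow_mul, mul_comm, pow_mul, ha, one_pow]) _)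
    exact Nat.Coprime.of_dvd_right (orderOf_dvd_of_pow_eq_one ha)
      (Nat.coprime_of_lt_prime j0 (mem_range.1 hj) hq).symm

theorem jobPair : JobPair.{u} := by
  classical
  intro H _ _ M B z hz BM cz cm hB
  have cc : ∀ g ∈ M, ∀ c ∈ zpowers z, Commute g c := by
    rintro g hg _ ⟨k, rfl⟩
    exact (cz g hg).zpow_right k
  have z1 : (⟨z, mem_zpowers z⟩ : zpowers z) ≠ 1 := fun e =>
    hz.one_lt.ne' (orderOf_eq_one_iff.2 (congrArg Subtype.val e))
  let _ : CommGroup (zpowers z) := IsCyclic.commGroup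
  have := Fact.mk hz
  obtain ⟨ι, hι⟩ := CommGroup.exists_apply_ne_one_of_hasEnoughRootsOfUnity (zpowers z) ℂ z1
  have inj : ∀ c, ι c = 1 → c = 1 := fun c hc => by
    have := isSimpleGroup_of_prime_card (α := zpowers z) (p := orderOf z) (Nat.card_zpowers z)
    obtain h | h := IsSimpleGroup.eq_bot_or_eq_top_of_normal ι.ker inferInstance
    · exact mem_bot.1 (h ▸ hc)
    · exact absurd (h.ge (mem_top _)) hι
  let β : M → M → zpowers z := fun g y => ⟨⁅g.1, y.1⁆, cm _ g.2 _ y.2⟩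
  let L : M → M →* ℂˣ := fun g => MonoidHom.mk' (fun y => ι (β g y)) fun y y' => by
    rw [← map_mul]
    congr 1
    refine Subtype.ext ?_
    show ⁅g.1, y.1 * y'.1⁆ = ⁅g.1, y.1⁆ * ⁅g.1, y'.1⁆
    rw [show ⁅g.1, y.1 * y'.1⁆ = ⁅g.1, y.1⁆ * (y.1 * ⁅g.1, y'.1⁆) * y.1⁻¹ by group,
      (cc _ y.2 _ (cm _ g.2 _ y'.2)).eq]
    group
  let Rr : M → B →* ℂˣ := fun y => MonoidHom.mk' (fun b => ι (β ⟨b.1, BM b.2⟩ y)) fun b b' => by
    rw [← map_mul]
    congr 1
    refine Subtype.ext ?_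
    show ⁅b.1 * b'.1, y.1⁆ = ⁅b.1, y.1⁆ * ⁅b'.1, y.1⁆
    rw [show ⁅b.1 * b'.1, y.1⁆ = (b.1 * ⁅b'.1, y.1⁆) * b.1⁻¹ * ⁅b.1, y.1⁆ by group,
      (cc _ (BM b.2) _ (cm _ (BM b'.2) _ y.2)).eq, mul_inv_cancel_right]
    exact (cc _ (mul_mem (mul_mem (mul_mem (BM b'.2) y.2) (inv_mem (BM b'.2))) (inv_mem y.2)) _
      (cm _ (BM b.2) _ y.2)).eq
  have := Fintype.ofFinite M
  have := Fintype.ofFinite B
  have s1 : ∑ b : B, ∑ y : M, (ι (β ⟨b.1, BM b.2⟩ y) : ℂ) = Nat.card M := by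
    rw [sum_eq_single 1 (fun b _ b1 => ?_) (by simp)]
    · have : ∀ y, β ⟨(1 : B).1, BM (1 : B).2⟩ y = 1 := fun y => Subtype.ext (by simp [β])
      simp only [this]
      simp
    · refine sum_hom_units_eq_zero ((Units.coeHom ℂ).comp (L ⟨b.1, BM b.2⟩)) fun e => b1 ?_
      refine Subtype.ext (hB b b.2 fun g hg => commutatorElement_eq_one_iff_commute.1 ?_)
      exact congrArg Subtype.val (inj _ (Units.ext (DFunLike.congr_fun e ⟨g, hg⟩)))
  have s2 : ∑ y : M, ∑ b : B, (ι (β ⟨b.1, BM b.2⟩ y) : ℂ) =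
      (Nat.card ((centralizer (B : Set H)).subgroupOf M) * Nat.card B : ℕ) := by
    rw [sum_congr rfl (g := fun y => if y ∈ (centralizer (B : Set H)).subgroupOf M then (Nat.card B : ℂ) else 0)
      fun y _ => ?_]
    · rw [← sum_filter, sum_const, nsmul_eq_mul, Nat.cast_mul, Nat.card_eq_fintype_card (α := subgroupOf _ _),
        Fintype.card_subtype]
    · split_ifs with h
      · have : ∀ b : B, β ⟨b.1, BM b.2⟩ y = 1 := fun b =>
          Subtype.ext (commutatorElement_eq_one_iff_mul_comm.2 (h b b.2))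
        simp [this]
      · refine sum_hom_units_eq_zero ((Units.coeHom ℂ).comp (Rr y)) fun e => h fun b hb => ?_
        exact commutatorElement_eq_one_iff_mul_comm.1
          (congrArg Subtype.val (inj _ (Units.ext (DFunLike.congr_fun e ⟨b, hb⟩))))
  rw [sum_comm, s2, Nat.cast_inj, ← ((centralizer (B : Set H)).subgroupOf M).card_mul_index] at s1
  exact (Nat.eq_of_mul_eq_mul_left Nat.card_pos s1).le

end H27.Dg
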