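import Cfsg.Agent.H56.DgSpec

/-! Tower DG (S5732): slots Red, Main. -/

set_option autoImplicit false

namespace H27.Dg

open Subgroup H56.DG

universe u

theorem jobRed : JobRed.{u} := by
  intro H V _ _ _ _ _ R S hI
  simp only [Irr, not_forall, not_or] at hI
  obtain ⟨W, hW, h0, h1⟩ := hI
  have := S.normal
  have k1 : R.index + 1 ≤ Nat.card W := by
    obtain ⟨⟨v, hv⟩, v1⟩ := ne_bot_iff_exists_ne_one.1 h0
    have v1 : v ≠ 1 := fun e => v1 (Subtype.ext e)
    have h := cnt S (M := ⊥) bot_le v1 (X := (W : Set V) \ {1}) fun g =>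
      ⟨hW g v hv, fun c => v1 (by rw [← inv_smul_smul g v, Set.mem_singleton_iff.1 c, smul_one])⟩
    rw [relIndex_bot_right, mul_one, Set.ncard_sdiff_singleton_of_mem (one_mem _)] at h
    have h2 : 0 < Nat.card W := Nat.card_pos
    have h3 : (W : Set V).ncard = Nat.card W := rfl
    omega
  have k2 : R.index + 1 ≤ W.index := by
    obtain ⟨v, hv⟩ : ∃ v, v ∉ W := by
      by_contra c
      exact h1 (eq_top_iff.2 fun v _ => by_contra fun d => c ⟨v, d⟩)
    let f : Option (H ⧸ R) → V ⧸ W := fun c => c.elim 1 fun c => ((c.out • v : V) : V ⧸ W)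
    have n1 : ∀ g : H, ((g • v : V) : V ⧸ W) ≠ 1 := fun g e =>
      hv (by simpa using hW g⁻¹ _ ((QuotientGroup.eq_one_iff _).1 e))
    have inj : Function.Injective f := by
      rintro (_ | c) (_ | d) e
      · rfl
      · exact absurd e.symm (n1 _)
      · exact absurd e (n1 _)
      congr 1
      rw [← c.out_eq, ← d.out_eq]
      refine QuotientGroup.eq.2 (by_contra fun hn => hv ?_)
      have e1 := hW c.out⁻¹ _ (QuotientGroup.eq.1 e)
      rw [smul_mul', smul_inv', inv_smul_smul, ← mul_smul] at e1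
      generalize c.out⁻¹ * d.out = h at hn e1
      have pi : ∀ a b : V, a⁻¹ * h • a = b⁻¹ * h • b → a = b := fun a b e => by
        refine (inv_mul_eq_one.1 (S.out h hn (b⁻¹ * a) ?_)).symm
        rw [smul_mul', smul_inv', inv_mul_eq_iff_eq_mul, ← mul_assoc, mul_comm (h • b), ← e,
          mul_comm _ a, mul_inv_cancel_left]
      let φ : W → W := fun w => ⟨w.1⁻¹ * h • w.1, mul_mem (inv_mem w.2) (hW h _ w.2)⟩
      obtain ⟨w, hw⟩ := Finite.injective_iff_surjective.1
        (show Function.Injective φ from fun a b e => Subtype.ext (pi _ _ (congrArg Subtype.val e))) ⟨_, e1⟩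
      exact pi _ _ (congrArg Subtype.val hw) ▸ w.2
    have := Nat.card_le_card_of_injective f inj
    rwa [Finite.card_option] at this
  rw [Good, ← W.card_mul_index, sq]
  exact Nat.mul_le_mul k1 k2

theorem jobMain (red : JobRed.{u}) (core : JobCore.{u}) : JobMain.{u} := by
  intro H V _ _ _ _ _ R
  induction' hn : Nat.card H using Nat.strong_induction_on with n ih generalizing H
  rintro S ⟨x, x1, hx⟩
  by_cases hI : Irr H V
  swap
  · exact .inl (red H V R S hI)
  have := S.normal
  have xR : x ∈ R := by_contra fun c => hx (S.out x c)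
  obtain ⟨q, hq, hd⟩ := Nat.exists_prime_and_dvd (n := orderOf x) (by simpa using x1)
  have := Fact.mk hq
  have oy : orderOf (x ^ (orderOf x / q)) = q := orderOf_pow_orderOf_div (orderOf_pos x).ne' hd
  have hy : ¬ Fpf V (x ^ (orderOf x / q)) := fun c => hx c.of_pow
  have yR : x ^ (orderOf x / q) ∈ R := pow_mem xR _
  generalize x ^ (orderOf x / q) = y at oy hy yR
  have y1 : y ≠ 1 := fun e => hq.one_lt.ne (by rw [← oy, e, orderOf_one])
  obtain ⟨Q, hQ⟩ := (IsPGroup.of_card (G := zpowers (⟨y, yR⟩ : R)) (p := q) (n := 1) (by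
    rw [Nat.card_zpowers, ← orderOf_coe, oy, pow_one])).exists_le_sylow
  have yQ : y ∈ (Q : Subgroup R).map R.subtype := ⟨_, hQ (mem_zpowers _), rfl⟩
  have fr := Q.normalizer_sup_eq_top
  generalize hY : normalizer (((Q : Subgroup R).map R.subtype : Subgroup H) : Set H) = Y at fr
  by_cases hT : Y = ⊤
  · exact core H V R _ q S hI (normalizer_eq_top_iff.1 (hY.trans hT)) (map_subtype_le _) hq
      (Q.isPGroup'.map _) ⟨y, yQ, y1, hy⟩
  have yY : y ∈ Y := hY ▸ le_normalizer yQ
  have lt : Nat.card Y < n := hn ▸ (card_le_card_group Y).lt_of_ne fun e => hT (eq_top_of_card_eq Y e)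
  have h := ih _ lt Y (R.subgroupOf Y) rfl ⟨inferInstance, fun h e => Subtype.ext (S.faith h e),
    fun h e => S.out h e⟩ ⟨⟨y, yY⟩, fun e => y1 (congrArg Subtype.val e), hy⟩
  have e : (R.subgroupOf Y).index = R.index := by
    rw [← relIndex_top_right (H := R), ← fr, relIndex_sup_right]; rfl
  simpa only [Concl, Good, e] using h

end H27.Dg
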