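/- Tower E82, slot Ext: a twisted torus through a class of order 65 is larger than `⟨c⟩`. -/
import Cfsg.Agent.H40.E82Spec

set_option autoImplicit false

namespace H27.E82

open Cfsg.Lie H63 H64 H65 H46 H67 H40.E82

attribute [local instance] H65.tabE8 H65.commE8

/-- The Cartan matrix. -/
def cm (i j : ℕ) : ℤ :=
  (([[2, 0, -1, 0, 0, 0, 0, 0], [0, 2, 0, -1, 0, 0, 0, 0], [-1, 0, 2, -1, 0, 0, 0, 0],
    [0, -1, -1, 2, -1, 0, 0, 0], [0, 0, 0, -1, 2, -1, 0, 0], [0, 0, 0, 0, -1, 2, -1, 0],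
    [0, 0, 0, 0, 0, -1, 2, -1], [0, 0, 0, 0, 0, 0, -1, 2]] : List (List ℤ)).getD i []).getD j 0

theorem cm_spec : ∀ i j : Fin chevE8.rank, chevE8.cartan i (chevE8.simple j) = cm i j := by
  decide +kernel

/-- A list as a cocharacter. -/
def vc (a : List ℤ) : Fin chevE8.rank → ℤ := fun i => a.getD i 0

/-- The pairing with a simple root. -/
def dt (a : List ℤ) (j : ℕ) : ℤ := ∑ i : Fin 8, a.getD i 0 * cm i j

/-- A fundamental reflection. -/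
def sL (i : ℕ) (a : List ℤ) : List ℤ :=
  (List.range 8).map fun j => if j = i then a.getD j 0 - dt a i else a.getD j 0

theorem dt_eq (a : List ℤ) (j : Fin chevE8.rank) :
    ∑ i, vc a i * chevE8.cartan i (chevE8.simple j) = dt a j :=
  Finset.sum_congr rfl fun i _ => by rw [cm_spec]; rfl

theorem sT_zp {A : Type*} [CommGroup A] (ζ : A) (i : ℕ) (hi : i < 8) (a : List ℤ) :
    sT chevE8 i (zp ζ (vc a)) = zp ζ (vc (sL i a)) := by
  have h := sT_apply (D := chevE8) (⟨i, hi⟩ : Fin chevE8.rank) (zp ζ (vc a))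
  have h2 : chi chevE8 (zp ζ (vc a)) (chevE8.simple i) = ζ ^ dt a i := by
    rw [← dt_eq a ⟨i, hi⟩, chi_eq]
    exact zpow_fun_ev ζ _ _
  refine h.trans (funext fun j => ?_)
  have hj : (j : ℕ) < 8 := j.2
  have h3 : vc (sL i a) j = if (j : ℕ) = i then vc a j - dt a i else vc a j := by
    simp [vc, sL, List.getD_eq_getElem?_getD, hj]
  change ζ ^ vc a j * Pi.mulSingle (M := fun _ => A) (⟨i, hi⟩ : Fin chevE8.rank)
    (chi chevE8 (zp ζ (vc a)) (chevE8.simple i))⁻¹ j = ζ ^ vc (sL i a) j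
  rw [h2, h3]
  by_cases e : (j : ℕ) = i
  · obtain rfl : j = ⟨i, hi⟩ := Fin.ext e
    rw [if_pos rfl, Pi.mulSingle_eq_same, zpow_sub]
  · rw [if_neg e, Pi.mulSingle_eq_of_ne (fun h => e (congrArg Fin.val h)), mul_one]

theorem wT_zp {A : Type*} [CommGroup A] (ζ : A) (L : List ℕ) (hL : ∀ i ∈ L, i < 8) (a : List ℤ) :
    wT chevE8 L (zp ζ (vc a)) = zp ζ (vc (L.foldr sL a)) := by
  induction L with
  | nil => rfl
  | cons i L ih =>
    rw [wT_cons, ih fun j hj => hL j (List.mem_cons_of_mem _ hj),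
      sT_zp ζ i (hL i List.mem_cons_self)]
    rfl

/-- The word takes `2 a` to `a` modulo `n`. -/
def ok (n : ℕ) (L : List ℕ) (a : List ℤ) : Prop :=
  (∀ i ∈ L, i < 8) ∧ ∀ j : Fin 8,
    ((L.foldr sL (a.map fun x => 2 * x)).getD j 0 - a.getD j 0) % (n : ℤ) = 0

instance (n : ℕ) (L : List ℕ) (a : List ℤ) : Decidable (ok n L a) := by
  unfold ok; infer_instance

theorem mem_of_ok {n : ℕ} {L : List ℕ} {a : List ℤ} (h : ok n L a) {ζ : K2ˣ}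
    (hζ : orderOf ζ = n) : zp ζ (vc a) ∈ Tw chevE8 L (frobenius K2 2) := by
  have e : zp ζ (vc a) ^ 2 = zp ζ (vc (a.map fun x => 2 * x)) := by
    funext j
    have : vc (a.map fun x => 2 * x) j = vc a j * 2 := by
      simp only [vc, List.getD_eq_getElem?_getD, List.getElem?_map]
      cases a[(j : ℕ)]? <;> simp [mul_comm]
    change (ζ ^ vc a j) ^ 2 = ζ ^ vc (a.map fun x => 2 * x) j
    rw [this, zpow_mul, zpow_ofNat]
  rw [mem_Tw, frT_eq_pow (frobenius_def 2), e, wT_zp ζ L h.1]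
  funext j
  refine zpow_eq_zpow_iff_modEq.2 ?_
  rw [hζ]
  exact (Int.modEq_iff_dvd.2 (Int.dvd_of_emod_eq_zero (h.2 j))).symm

theorem eq_zp {X : List ℕ} {a : List ℤ} (h : ∀ j : Fin 8, dt a j = (X.getD j 0 : ℕ)) {ζ : K2ˣ}
    {c : Fin chevE8.rank → K2ˣ} (hc : Cls ζ X c) : c = zp ζ (vc a) := by
  refine eq_of_chi_eq (kerE8.cker_eq_bot _) fun r => ?_
  rw [hc, chi_zp]
  congr 1
  unfold pr
  simp only [cartan_eq _ r, Finset.mul_sum]
  rw [Finset.sum_comm]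
  refine Finset.sum_congr rfl fun j _ => ?_
  rw [← h j, ← dt_eq a j, Finset.mul_sum]
  exact Finset.sum_congr rfl fun i _ => by unfold H43.Alc.rt8; ring

theorem three {X : List ℕ} (a d : List ℤ) (L : List ℕ)
    (h : ∀ j : Fin 8, dt a j = (X.getD j 0 : ℕ)) (h1 : ok 65 L a) (h2 : ok 3 L d)
    (h3 : ∃ j : Fin 8, (65 * d.getD j 0) % 3 ≠ 0) (ζ : K2ˣ) (c : Fin chevE8.rank → K2ˣ)
    (hζ : orderOf ζ = 65) (hc : Cls ζ X c) : ∃ (L : List ℕ) (d : Fin chevE8.rank → K2ˣ),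
      c ∈ Tw chevE8 L (frobenius K2 2) ∧ d ∈ Tw chevE8 L (frobenius K2 2) ∧
      d ∉ Subgroup.zpowers c := by
  obtain ⟨ξ, hξ, -⟩ := exists_root_unit (k := K2) (N := 3) (by
    rw [Ne, CharP.cast_eq_zero_iff K2 2]; decide)
  obtain rfl := eq_zp h hc
  refine ⟨L, zp ξ (vc d), mem_of_ok h1 hζ, mem_of_ok h2 hξ, ?_⟩
  rintro ⟨k, hk⟩
  obtain ⟨j, hj⟩ := h3
  have e : (ζ ^ vc a j) ^ k = ξ ^ vc d j := congrFun hk j
  have e2 : ξ ^ (65 * vc d j) = 1 := by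
    rw [mul_comm, zpow_mul, ← e, ← zpow_mul, ← zpow_mul, ← orderOf_dvd_iff_zpow_eq_one, hζ]
    exact ⟨vc a j * k, by push_cast; ring⟩
  rw [← orderOf_dvd_iff_zpow_eq_one, hξ] at e2
  exact hj (Int.emod_eq_zero_of_dvd e2)

theorem five {X : List ℕ} (a d : List ℤ) (L : List ℕ)
    (h : ∀ j : Fin 8, dt a j = (X.getD j 0 : ℕ)) (h1 : ok 65 L a) (h2 : ok 65 L d)
    (h3 : ∀ k : Fin 65, ∃ j : Fin 8, (d.getD j 0 - a.getD j 0 * (k : ℕ)) % 65 ≠ 0) (ζ : K2ˣ)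
    (c : Fin chevE8.rank → K2ˣ)
    (hζ : orderOf ζ = 65) (hc : Cls ζ X c) : ∃ (L : List ℕ) (d : Fin chevE8.rank → K2ˣ),
      c ∈ Tw chevE8 L (frobenius K2 2) ∧ d ∈ Tw chevE8 L (frobenius K2 2) ∧
      d ∉ Subgroup.zpowers c := by
  obtain rfl := eq_zp h hc
  refine ⟨L, zp ζ (vc d), mem_of_ok h1 hζ, mem_of_ok h2 hζ, ?_⟩
  rintro ⟨k, hk⟩
  obtain ⟨j, hj⟩ := h3 ⟨(k % 65).toNat, by omega⟩
  have e : (ζ ^ vc a j) ^ k = ζ ^ vc d j := congrFun hk j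
  rw [← zpow_mul, zpow_eq_zpow_iff_modEq, hζ] at e
  obtain ⟨y, hy⟩ := e.dvd
  apply hj
  have h5 : (((k % 65).toNat : ℕ) : ℤ) = k % 65 := by omega
  change (vc d j - vc a j * (((k % 65).toNat : ℕ) : ℤ)) % 65 = 0
  rw [h5]
  refine Int.emod_eq_zero_of_dvd ⟨y + vc a j * (k / 65), ?_⟩
  have h6 := Int.emod_add_mul_ediv k 65
  push_cast at hy
  linear_combination hy - vc a j * h6

theorem jobExt : JobExt := by
  intro X hX
  simp only [cl65, List.mem_cons, List.not_mem_nil, or_false] at hX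
  rcases hX with rfl | rfl | rfl | rfl | rfl | rfl
  · exact three [101, 155, 202, 302, 245, 187, 128, 65] [0, 0, 1, 0, 2, 1, 0, 2]
      [0, 2, 3, 1, 4, 3, 1, 2, 0, 3, 4, 5, 4, 3, 1, 2, 3, 4, 6, 5, 4, 3, 1, 2, 0, 3, 2, 4, 3, 1,
        7, 6, 5, 4, 3, 1, 2, 0, 3, 2, 4, 3, 1, 5, 4, 3, 2, 6, 5, 4, 3, 1, 7, 6, 5, 4, 3, 2, 0]
      (by decide +kernel) (by decide +kernel) (by decide +kernel) (by decide +kernel)
  · exact three [66, 98, 131, 196, 162, 127, 90, 49] [0, 1, 2, 0, 0, 0, 0, 0]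
      [0, 2, 4, 3, 1, 5, 4, 3, 2, 0, 6, 5, 4, 3, 1, 2, 3, 4, 5, 6, 7, 6, 5, 4, 3, 1, 2, 0, 3, 2,
        4, 3, 1, 5, 4, 3, 2, 0, 6, 5, 4, 3, 1, 2, 3, 4, 5, 6, 7]
      (by decide +kernel) (by decide +kernel) (by decide +kernel) (by decide +kernel)
  · exact five [98, 147, 195, 289, 235, 180, 123, 63] [13, 39, 39, 26, 0, 0, 52, 26]
      [2, 3, 1, 2, 0, 4, 3, 2, 5, 4, 3, 1, 6, 5, 4, 3, 1, 2, 0, 3, 2, 4, 3, 1, 5, 4, 3, 2, 6, 5,
        4, 3, 1, 7, 6, 5, 4, 3, 1, 2, 0, 3, 2, 4, 3, 1, 5, 4, 3, 2, 6, 5, 4, 3, 1, 7, 6, 5, 4,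
        3, 2, 0]
      (by decide +kernel) (by decide +kernel) (by decide +kernel) (by decide +kernel)
  · exact three [96, 141, 188, 280, 230, 176, 120, 64] [0, 0, 1, 0, 0, 0, 2, 0]
      [1, 3, 2, 0, 4, 3, 2, 5, 4, 3, 1, 6, 5, 4, 3, 2, 0, 7, 6, 5, 4, 3, 1, 2, 3, 4, 5, 6, 7]
      (by decide +kernel) (by decide +kernel) (by decide +kernel) (by decide +kernel)
  · exact five [87, 127, 170, 252, 205, 157, 108, 58] [52, 52, 39, 39, 0, 26, 26, 13]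
      [2, 0, 3, 1, 2, 3, 4, 5, 4, 3, 1, 2, 0, 3, 2, 4, 3, 1, 6, 5, 4, 3, 2, 0, 7, 6, 5, 4, 3, 1,
        2, 3, 4, 5, 6, 7]
      (by decide +kernel) (by decide +kernel) (by decide +kernel) (by decide +kernel)
  · exact three [87, 127, 169, 251, 205, 157, 109, 58] [0, 0, 1, 0, 0, 2, 0, 0]
      [0, 1, 2, 3, 4, 5, 6, 5, 4, 3, 1, 2, 0, 3, 2, 4, 3, 1, 5, 4, 3, 2, 0, 7, 6, 5, 4, 3, 1, 2,
        3, 4, 5, 6, 7]
      (by decide +kernel) (by decide +kernel) (by decide +kernel) (by decide +kernel)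

end H27.E82
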