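import Cfsg.Agent.H27.FixAltA

/-! Suborbits with alternating constituent, part B: both kernels have large centralizers. -/

set_option autoImplicit false
set_option linter.unusedSectionVars false

open Cfsg Subgroup H98 H14 H89.TW Equiv

namespace H27.FA

variable {G : Type*} [Group G] {H K D : Subgroup G} {d : ℕ}

/-- `f` is the action of `H` on the cosets of `H ⊓ K` -/
structure Act (H K : Subgroup G) {d : ℕ} (f : H →* Perm (Fin d)) (x0 : Fin d) : Prop where
  st : ∀ h : H, f h x0 = x0 ↔ (h : G) ∈ K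
  tr : ∀ x, ∃ h, f h x0 = x

variable {φ : H →* Perm (Fin d)} {ψ : K →* Perm (Fin d)} {x0 y0 : Fin d}

theorem Act.ker (a : Act H K φ x0) : Ker φ (c1 H K) := fun s => by
  refine ⟨fun h => ⟨s, fun b => (a.st (b * s * b⁻¹)).1 (by simp [h]), rfl⟩, ?_⟩
  rintro ⟨s', hs', e⟩
  obtain rfl : s' = s := Subtype.ext e
  refine Equiv.ext fun x => ?_
  obtain ⟨h, rfl⟩ := a.tr x
  have := (a.st (h⁻¹ * s' * h⁻¹⁻¹)).2 (hs' h⁻¹)
  simp only [map_mul, map_inv, inv_inv, Perm.mul_apply, Perm.inv_eq_iff_eq] at this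
  simpa using this

theorem exAct [Finite G] (hd : K.relIndex H = d) :
    ∃ (f : H →* Perm (Fin d)) (x0 : Fin d), Act H K f x0 := by
  let e : (H ⧸ K.subgroupOf H) ≃ Fin d := Finite.equivFinOfCardEq hd
  refine ⟨e.permCongrHom.toMonoidHom.comp (MulAction.toPermHom H (H ⧸ K.subgroupOf H)),
    e ((1 : H) : H ⧸ K.subgroupOf H), fun h => ?_, fun x => ?_⟩
  · simp only [MonoidHom.comp_apply, MulEquiv.coe_toMonoidHom, Equiv.permCongrHom_coe,
      Equiv.permCongr_apply, Equiv.symm_apply_apply, EmbeddingLike.apply_eq_iff_eq,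
      MulAction.toPermHom_apply, MulAction.toPerm_apply]
    rw [← MulAction.mem_stabilizer_iff, MulAction.stabilizer_quotient, mem_subgroupOf]
  · obtain ⟨h, hh⟩ := QuotientGroup.mk_surjective (e.symm x)
    refine ⟨h, ?_⟩
    simp only [MonoidHom.comp_apply, MulEquiv.coe_toMonoidHom, Equiv.permCongrHom_coe,
      Equiv.permCongr_apply, Equiv.symm_apply_apply, MulAction.toPermHom_apply,
      MulAction.toPerm_apply]
    rw [← Equiv.eq_symm_apply, ← hh, MulAction.Quotient.smul_mk, smul_eq_mul, mul_one]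

theorem Act.ex1 (a : Act H K φ x0) (hD : D = H ⊓ K) :
    ∃ f : D →* Perm (Fin (d - 1)), Ker f (c1 H K) ∧
      (∀ (t : D) (h : H), (h : G) = t → Perm.sign (f t) = Perm.sign (φ h)) ∧
      (Big φ H → Big f D) := by
  subst hD
  obtain ⟨j, j1, j2, j3⟩ := exJ x0
  have hr : ∀ t : ↥(H ⊓ K), (φ.comp (inclusion inf_le_left)) t ∈ j.range := fun t =>
    (j3 _).2 ((a.st _).2 t.2.2)
  let f := (MonoidHom.ofInjective j1).symm.toMonoidHom.comp
    ((φ.comp (inclusion inf_le_left)).codRestrict j.range hr)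
  have hf : ∀ t, j (f t) = φ (inclusion inf_le_left t) := fun t =>
    MonoidHom.apply_ofInjective_symm j1 _
  refine ⟨f, fun t => ?_, fun t h e => ?_, fun hb σ hσ => ?_⟩
  · rw [← j1.eq_iff, hf, map_one, a.ker]; rfl
  · rw [← j2, hf]
    exact congrArg (fun x => Perm.sign (φ x)) (Subtype.ext e.symm)
  · obtain ⟨s, -, hs⟩ := hb (Perm.mem_alternatingGroup.2 ((j2 σ).trans
      (Perm.mem_alternatingGroup.1 hσ)))
    have hK : (s : G) ∈ K := (a.st s).1 (hs ▸ (j3 _).1 ⟨σ, rfl⟩)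
    exact ⟨⟨s, s.2, hK⟩, ⟨s.2, hK⟩, j1 ((hf _).trans hs)⟩

theorem exConj {P : Type*} [Group P] (f : H →* P) {g : G} (hg : cj g H = K) :
    ∃ fc : K →* P, (∀ N, Ker f N → Ker fc (cj g N)) ∧ ∀ M, im fc (cj g M) = im f M := by
  subst hg
  let e : H ≃* cj g H := (MulAut.conj g).subgroupMap H
  have he : ∀ h : H, ((e h : cj g H) : G) = g * h * g⁻¹ := fun h => rfl
  refine ⟨f.comp e.symm.toMonoidHom, fun N hN s => ?_, fun M => Subgroup.ext fun σ => ⟨?_, ?_⟩⟩
  · obtain ⟨h, rfl⟩ := e.surjective s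
    rw [he, conj_mem_cj_iff, ← hN]
    simp
  · rintro ⟨s, hs, rfl⟩
    obtain ⟨h, rfl⟩ := e.surjective s
    exact ⟨h, (conj_mem_cj_iff (g := g) (x := (h : G)) (H := M)).1 hs, by simp⟩
  · rintro ⟨h, hh, rfl⟩
    exact ⟨e h, (conj_mem_cj hh : g * h * g⁻¹ ∈ cj g M), by simp⟩

theorem nA (H K : Subgroup G) : H ≤ normalizer (c1 H K : Set G) := le_normalizer_coreIn _ _

theorem nU (H K : Subgroup G) :
    H ≤ normalizer ((H ⊓ centralizer (c1 H K : Set G) : Subgroup G) : Set G) :=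
  le_normalizer_inf le_normalizer ((nA H K).trans (normalizer_le_normalizer_centralizer _))

variable [Finite G]

theorem Act.small (a : Act H K φ x0) {R : Subgroup G} (h1 : R ≤ H) (h2 : R ≤ K) :
    (c1 H K).relIndex R ≤ (d - 1).factorial := by
  obtain ⟨f, hk, -⟩ := a.ex1 rfl
  exact relIndex_le_fac hk (le_inf h1 h2)

theorem fit_bot (P : Pair H K) (a : Act H K φ x0) (h6 : 6 ≤ d) (hφ : Big φ H) :
    fitOf (H ⊓ K) = ⊥ := by
  refine eq_bot_iff.2 (fitOf_le_of_forall fun p hp => ?_)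
  have := Fact.mk hp
  obtain ⟨f, hk, -, hb⟩ := a.ex1 rfl
  refine (P.pCoreOf_eq_bot (((hb hφ).nrm (by omega) hk (pCoreOf_le _)
    (self_le_normalizer_pCoreOf _)).resolve_right fun e => ?_)).le
  exact alt_not_pgroup (by omega : 5 ≤ d - 1)
    ((((isPGroup_pCoreOf (p := p) (H ⊓ K)).comap_subtype).map f).to_le e)

theorem inf_cent_bot {A : Subgroup G} (hF : fitOf D = ⊥) (h1 : A ≤ D)
    (h2 : D ≤ normalizer (A : Set G)) : A ⊓ centralizer (A : Set G) = ⊥ := by
  refine eq_bot_iff.2 (hF ▸ le_fitOf (inf_le_left.trans h1) (le_normalizer_inf h2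
    (h2.trans (normalizer_le_normalizer_centralizer _))) ?_)
  let _ : CommGroup (A ⊓ centralizer (A : Set G) : Subgroup G) :=
    { (inferInstance : Group (A ⊓ centralizer (A : Set G) : Subgroup G)) with
      mul_comm := fun x y => Subtype.ext (y.2.2 x x.2.1) }
  exact CommGroup.isNilpotent

theorem not_both (P : Pair H K) (hF : fitOf (H ⊓ K) = ⊥) (hA : c1 H K ≠ ⊥)
    (h1 : H ⊓ centralizer (c1 H K : Set G) ≤ c1 H K)
    (h2 : K ⊓ centralizer (c1 K H : Set G) ≤ c1 K H) : False := by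
  have e1 := P.layer_eq h1
  have e2 := P.symm.layer_eq h2
  rw [inf_comm, ← e1] at e2
  have e3 := P.both (layerOf_le_self H) (e2 ▸ layerOf_le_self K) (self_le_normalizer_layerOf H)
    (e2 ▸ self_le_normalizer_layerOf K)
  have h3 := inf_centralizer_fstarOf_le (H ⊓ K)
  rw [fstarOf_eq, hF, ← e1, e3, sup_idem, centralizer_bot', inf_top_eq] at h3
  exact hA (eq_bot_iff.2 ((c1_le H K).trans h3))

theorem alpha (P : Pair H K) (a : Act H K φ x0) (b : Act K H ψ y0) (h6 : 6 ≤ d)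
    (hF : fitOf (H ⊓ K) = ⊥) (hU : Big φ (H ⊓ centralizer (c1 H K : Set G))) :
    Big ψ (K ⊓ centralizer (c1 K H : Set G)) := by
  have h5 : 5 ≤ d := by omega
  obtain ⟨g, hg⟩ := P.conj
  obtain ⟨fc, c1', c2'⟩ := exConj φ hg
  have hk := c1' _ a.ker
  set U := cj g (H ⊓ centralizer (c1 H K : Set G)) with hUdef
  have bU : Big fc U := by rw [Big, c2']; exact hU
  have UK : U ≤ K := hg ▸ cj_mono g inf_le_left
  have nUK : K ≤ normalizer (U : Set G) := by
    rw [hUdef, ← cj_normalizer, ← hg]; exact cj_mono g (hg ▸ nU H K)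
  have UN : U ⊓ cj g (c1 H K) = ⊥ := by
    rw [hUdef, ← cj_inf, cj_eq_bot_iff, eq_bot_iff,
      ← inf_cent_bot hF (c1_le H K) (inf_le_left.trans (nA H K))]
    exact le_inf inf_le_right (inf_le_left.trans inf_le_right)
  rcases bU.nrm h5 hk (M := U ⊓ c1 K H) (inf_le_left.trans UK)
    (le_normalizer_inf le_normalizer (UK.trans (nA K H))) with e | e
  · have e0 : U ⊓ c1 K H = ⊥ := eq_bot_iff.2 (UN ▸ le_inf inf_le_left e)
    refine Big.mono (M := U) (alt_le_of_fac_le ?_) (le_inf UK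
      (commutator_eq_bot_iff_le_centralizer.1 (eq_bot_iff.2 (e0 ▸ le_inf (commutator_le_left'
        ((coreIn_le_left _ _).trans nUK)) (commutator_le_right' (UK.trans (nA K H)))))))
    have := bU.fac_le h5 hk UK
    rwa [card_im b.ker UK, ← inf_relIndex_left, e0, ← UN, inf_relIndex_left]
  · exfalso
    have RH : U ⊓ c1 K H ≤ H := inf_le_right.trans (coreIn_le _ _)
    have e1 := e.step h5 hk (inf_le_left.trans UK) (RH.trans (nA H K))
      (a.small RH (inf_le_left.trans UK))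
    have : (U.subgroupOf K).Normal := (normal_subgroupOf_iff_le_normalizer UK).2 nUK
    let V := (U.subgroupOf K ⊓ (alternatingGroup (Fin d)).comap fc).map K.subtype
    have bV : Big fc V := fun σ hσ => by
      obtain ⟨s, hs, rfl⟩ := bU hσ
      exact ⟨s, ⟨s, ⟨hs, hσ⟩, rfl⟩, rfl⟩
    have VA : V ≤ c1 H K := by
      rintro _ ⟨v, ⟨hv, hv'⟩, rfl⟩
      obtain ⟨m, hm, hmv⟩ := e1 hv'
      have h1 : ((m⁻¹ * v : K) : G) ∈ U ⊓ cj g (c1 H K) :=
        ⟨U.mul_mem (U.inv_mem hm.1.1) hv, (hk _).1 (by rw [map_mul, map_inv, hmv, inv_mul_cancel])⟩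
      rw [UN, mem_bot, coe_mul, coe_inv, inv_mul_eq_one] at h1
      exact (h1 ▸ hm.2 : (v : G) ∈ c1 H K)
    have h2 : c2 K H ≠ ⊥ := fun e2 => bV.ne_bot h5 (eq_bot_iff.2 (e2 ▸ le_coreIn VA
      (map_subtype_le _) (le_normalizer_map_subtype _)))
    exact hU.not_le h5 a.ker (P.cent_c1 h2)

theorem beta (P : Pair H K) (a : Act H K φ x0) (b : Act K H ψ y0) (h6 : 6 ≤ d)
    (hφ : Big φ H) (h2 : c2 H K = ⊥) : Big ψ K := by
  have h5 : 5 ≤ d := by omega
  obtain ⟨g, hg⟩ := P.conj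
  obtain ⟨fc, c1', c2'⟩ := exConj φ hg
  have hk := c1' _ a.ker
  have bK : Big fc K := Big.mono (M := cj g H) (by rw [Big, c2']; exact hφ) hg.le
  have BK : c1 K H ≤ K := coreIn_le_left _ _
  have BH : c1 K H ≤ H := coreIn_le _ _
  rcases bK.nrm h5 hk BK (nA K H) with e | e
  · refine alt_le_of_fac_le ((bK.fac_le h5 hk le_rfl).trans (Nat.mul_le_mul_left _ ?_))
    rw [card_im b.ker le_rfl]
    exact relIndex_le_of_le_left e index_ne_zero_of_finite
  · exfalso
    obtain ⟨R0, r1, r2, r3⟩ := (e.step h5 hk BK (BH.trans (nA H K)) (a.small BH BK)).exQ h5 hk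
      (inf_le_left.trans BK)
    refine r1 (eq_bot_iff.2 (h2 ▸ fun x hx => ⟨⟨x, BH (r2 hx).1⟩, fun h => ?_, rfl⟩))
    have hA : c1 K H ⊓ c1 H K ≤ cj (h : G)⁻¹ (H ⊓ K) := inf_le_right.trans
      (le_cj_iff.2 ((cj_eq_self (nA H K (inv_mem (inv_mem h.2)))).le.trans (c1_le H K)))
    have := r3 (cj (h : G)⁻¹ (c1 K H)) (hA.trans (by
      rw [← cj_normalizer]; exact cj_mono _ (inf_le_right.trans (nA K H)))) (by
      refine (relIndex_le_of_le_right hA index_ne_zero_of_finite).trans ?_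
      rw [cj, cj, relIndex_map_map_of_injective _ _ (MulAut.conj _).injective]
      exact b.small inf_le_right inf_le_left) hx
    rw [mem_cj, inv_inv] at this
    exact this

theorem bothBig (P : Pair H K) (a : Act H K φ x0) (b : Act K H ψ y0) (h6 : 6 ≤ d)
    (hφ : Big φ H) (hA : c1 H K ≠ ⊥) : Big φ (H ⊓ centralizer (c1 H K : Set G)) ∧
      Big ψ (K ⊓ centralizer (c1 K H : Set G)) := by
  have h5 : 5 ≤ d := by omega
  have hF := fit_bot P a h6 hφ
  have h1 : Big φ (H ⊓ centralizer (c1 H K : Set G)) := by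
    refine (hφ.nrm h5 a.ker inf_le_left (nU H K)).elim (fun hC => ?_) id
    have hC' := not_both P hF hA hC
    have h2 : c2 H K = ⊥ := by_contra fun e => hC' (P.symm.cent_c1 e)
    exact alpha P.symm b a h6 (inf_comm H K ▸ hF) (((beta P a b h6 hφ h2).nrm h5 b.ker
      inf_le_left (nU K H)).resolve_left hC')
  exact ⟨h1, alpha P a b h6 hF h1⟩

theorem Act.factor (a : Act H K φ x0) (h6 : 6 ≤ d) {U : Subgroup G} (hU : Big φ U) (h : H) :
    ∃ u : H, (u : G) ∈ U ∧ ((u⁻¹ * h : H) : G) ∈ K := by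
  have := alternatingGroup.isPretransitive_of_three_le_card (Fin d) (by simp; omega)
  obtain ⟨σ, hσ⟩ := MulAction.exists_smul_eq (alternatingGroup (Fin d)) x0 (φ h x0)
  obtain ⟨u, hu, e⟩ := hU σ.2
  refine ⟨u, hu, (a.st _).1 ?_⟩
  rw [map_mul, map_inv, Perm.mul_apply, Perm.inv_eq_iff_eq, e]
  exact hσ.symm

theorem norm_E (a : Act H K φ x0) (h6 : 6 ≤ d)
    (hU : Big φ (H ⊓ centralizer (c1 H K : Set G))) :
    H ≤ normalizer ((c1 H K ⊓ c1 K H : Subgroup G) : Set G) := fun h hh => by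
  obtain ⟨u, hu, e⟩ := a.factor h6 hU ⟨h, hh⟩
  have h1 : (u : G) ∈ normalizer ((c1 H K ⊓ c1 K H : Subgroup G) : Set G) :=
    centralizer_le_normalizer _ (centralizer_le (fun _ hx => hx.1) hu.2)
  have h2 := le_normalizer_inf (inf_le_left.trans (nA H K)) (inf_le_right.trans (nA K H))
    (⟨(u⁻¹ * ⟨h, hh⟩ : H).2, e⟩ : _ ∈ H ⊓ K)
  simpa using mul_mem h1 h2

theorem E_bot (P : Pair H K) (a : Act H K φ x0) (b : Act K H ψ y0) (h6 : 6 ≤ d)
    (hU : Big φ (H ⊓ centralizer (c1 H K : Set G)))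
    (hW : Big ψ (K ⊓ centralizer (c1 K H : Set G))) : c1 H K ⊓ c1 K H = ⊥ :=
  P.both (inf_le_left.trans (coreIn_le_left _ _)) (inf_le_left.trans (coreIn_le _ _))
    (norm_E a h6 hU) (inf_comm (c1 K H) (c1 H K) ▸ norm_E b h6 hW)

end H27.FA
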