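import Cfsg.Agent.H27.FixAltB

/-! Suborbits with alternating constituent, part C: the embedding in `S_d × S_(d-1)`. -/

set_option autoImplicit false
set_option linter.unusedSectionVars false

open Cfsg Subgroup H98 H14 H89.TW Equiv

namespace H27.FA

variable {G : Type*} [Group G] [Finite G] {H K : Subgroup G} {d : ℕ}
variable {φ : H →* Perm (Fin d)} {ψ : K →* Perm (Fin d)} {x0 y0 : Fin d}

theorem even_of_even (P : Pair H K) (a : Act H K φ x0) (b : Act K H ψ y0) (h6 : 6 ≤ d)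
    (hψ : Big ψ K) (hE : c1 H K ⊓ c1 K H = ⊥) (he : ∀ h, Perm.sign (φ h) = 1) (k : K) :
    Perm.sign (ψ k) = 1 := by
  have h5 : 5 ≤ d := by omega
  obtain ⟨g, hg⟩ := P.conj
  have NK : cj g (c1 H K) ≤ K := hg ▸ cj_mono g (coreIn_le_left _ _)
  have nN : K ≤ normalizer (cj g (c1 H K) : Set G) := by
    rw [← cj_normalizer]; exact hg.ge.trans (cj_mono g (nA H K))
  have h1 : cj g (c1 H K) ≤ c1 K H := by
    refine (hψ.nrm h5 b.ker NK nN).resolve_right fun e => fac_absurd h5 (e.fac_le h5 b.ker NK) ?_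
    have h2 := b.small (R := c1 H K) (coreIn_le _ _) (coreIn_le_left _ _)
    rw [← inf_relIndex_left, hE, relIndex_bot_left, ← card_cj g, ← relIndex_bot_left] at h2
    exact (relIndex_le_of_le_left bot_le index_ne_zero_of_finite).trans h2
  have h3 : Nat.card (im ψ K) ≤ Nat.card (alternatingGroup (Fin d)) := by
    rw [card_im b.ker le_rfl]
    refine (relIndex_le_of_le_left h1 index_ne_zero_of_finite).trans ?_
    have : (cj g (c1 H K)).relIndex K = (c1 H K).relIndex H := by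
      rw [← relIndex_map_map_of_injective (c1 H K) H (f := (MulAut.conj g).toMonoidHom)
        (MulAut.conj g).injective]
      exact congrArg _ hg.symm
    rw [this, ← card_im a.ker le_rfl]
    refine card_le_of_le ?_
    rintro _ ⟨h, -, rfl⟩
    exact he h
  have h4 : alternatingGroup (Fin d) = im ψ K := eq_of_le_of_card_ge hψ h3
  exact Perm.mem_alternatingGroup.1 (h4 ▸ mem_im.2 ⟨k, k.2, rfl⟩)

theorem embed (P : Pair H K) (a : Act H K φ x0) (b : Act K H ψ y0) (h6 : 6 ≤ d)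
    (hφ : Big φ H) (hA : c1 H K ≠ ⊥) : ∃ θ : H →* Perm (Fin (d - 1)),
    Function.Injective (φ.prod θ) ∧
    (∀ σ, Perm.sign σ = 1 → ∃ h, φ h = σ ∧ θ h = 1) ∧
    (∀ τ, Perm.sign τ = 1 → ∃ h, φ h = 1 ∧ θ h = τ) ∧
    ((∀ h, Perm.sign (φ h) = 1) → ∀ h, Perm.sign (θ h) = 1) := by
  obtain ⟨hU, hW⟩ := bothBig P a b h6 hφ hA
  have hE := E_bot P a b h6 hU hW
  have hψ : Big ψ K := hW.mono inf_le_left
  obtain ⟨f, f1, f2, f3⟩ := b.ex1 (D := H ⊓ K) (inf_comm H K)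
  have bA : Big f (c1 H K) := ((f3 hψ).nrm (by omega) f1 (c1_le H K)
    (inf_le_left.trans (nA H K))).resolve_left fun e => hA (hE ▸ (inf_eq_left.2 e).symm)
  let C := (centralizer (c1 H K : Set G)).subgroupOf H
  have : C.Normal := ⟨fun x hx g => conj_mem_of_mem_normalizer (H := centralizer (c1 H K : Set G))
    (normalizer_le_normalizer_centralizer _ (nA H K g.2)) hx⟩
  let q : ↥(H ⊓ K) →* H ⧸ C := (QuotientGroup.mk' C).comp (inclusion inf_le_left)
  have hq : Function.Surjective q := fun y => by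
    obtain ⟨h, rfl⟩ := QuotientGroup.mk_surjective y
    obtain ⟨u, hu, e⟩ := a.factor h6 hU h
    refine ⟨⟨(u⁻¹ * h : H), (u⁻¹ * h).2, e⟩, ?_⟩
    change ((u⁻¹ * h : H) : H ⧸ C) = h
    rw [QuotientGroup.mk_mul, (QuotientGroup.eq_one_iff u⁻¹).2 (C.inv_mem hu.2), one_mul]
  have hk : q.ker ≤ f.ker := fun t ht =>
    bA.cent (by omega) t ((QuotientGroup.eq_one_iff (N := C) _).1 ht)
  let θ : H →* Perm (Fin (d - 1)) := (q.liftOfSurjective hq ⟨f, hk⟩).comp (QuotientGroup.mk' C)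
  have t1 : ∀ t : ↥(H ⊓ K), θ (inclusion inf_le_left t) = f t := fun t =>
    q.liftOfRightInverse_comp_apply _ (Function.rightInverse_surjInv hq) ⟨f, hk⟩ t
  have t2 : ∀ u : H, (u : G) ∈ centralizer (c1 H K : Set G) → θ u = 1 := fun u hu => by
    change (q.liftOfSurjective hq ⟨f, hk⟩) (u : H ⧸ C) = 1
    rw [(QuotientGroup.eq_one_iff u).2 hu, map_one]
  refine ⟨θ, (injective_iff_map_eq_one _).2 fun h hh => ?_, fun σ hσ => ?_, fun τ hτ => ?_,
    fun he h => ?_⟩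
  · have h1 := (a.ker h).1 (congrArg Prod.fst hh)
    have h2 := (f1 ⟨h, c1_le H K h1⟩).1 ((t1 _).symm.trans (congrArg Prod.snd hh))
    exact Subtype.ext (mem_bot.1 (hE ▸ (⟨h1, h2⟩ : (h : G) ∈ c1 H K ⊓ c1 K H)))
  · obtain ⟨u, hu, e⟩ := hU (Perm.mem_alternatingGroup.2 hσ)
    exact ⟨u, e, t2 u hu.2⟩
  · obtain ⟨t, ht, e⟩ := bA (Perm.mem_alternatingGroup.2 hτ)
    exact ⟨inclusion inf_le_left t, (a.ker _).2 ht, (t1 t).trans e⟩
  · obtain ⟨u, hu, e⟩ := a.factor h6 hU h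
    have h1 := t1 ⟨(u⁻¹ * h : H), (u⁻¹ * h).2, e⟩
    have h2 : θ (u⁻¹ * h) = θ h := by rw [map_mul, map_inv, t2 u hu.2, inv_one, one_mul]
    rw [← h2]
    refine (congrArg Perm.sign h1).trans ((f2 _ ⟨_, e⟩ rfl).trans ?_)
    exact even_of_even P a b h6 hψ hE he _

theorem classify {Γ : Type*} [Group Γ] {d e : ℕ} (h2 : 2 ≤ d) (φ : Γ →* Perm (Fin d))
    (θ : Γ →* Perm (Fin e)) (hi : Function.Injective (φ.prod θ))
    (h1 : ∀ σ, Perm.sign σ = 1 → ∃ h, φ h = σ ∧ θ h = 1)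
    (h3 : ∀ τ, Perm.sign τ = 1 → ∃ h, φ h = 1 ∧ θ h = τ)
    (h4 : (∀ h, Perm.sign (φ h) = 1) → ∀ h, Perm.sign (θ h) = 1) :
    (φ.range.index = 2 ∧ Nonempty (Γ ≃* alternatingGroup (Fin d) × alternatingGroup (Fin e))) ∨
    (φ.range = ⊤ ∧ (Nonempty (Γ ≃* Perm (Fin d) × Perm (Fin e)) ∨
      Nonempty (Γ ≃* Perm (Fin d) × alternatingGroup (Fin e)) ∨
      Nonempty (Γ ≃* ((Perm.sign.comp (MonoidHom.fst (Perm (Fin d)) (Perm (Fin e)))) *
        (Perm.sign.comp (MonoidHom.snd (Perm (Fin d)) (Perm (Fin e))))).ker))) := by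
  have key : ∀ (σ : Perm (Fin d)) (τ : Perm (Fin e)) (h : Γ), Perm.sign (φ h) = Perm.sign σ →
      Perm.sign (θ h) = Perm.sign τ → (σ, τ) ∈ (φ.prod θ).range := fun σ τ h e1 e2 => by
    obtain ⟨x, x1, x2⟩ := h1 (σ * (φ h)⁻¹) (by simp [e1])
    obtain ⟨y, y1, y2⟩ := h3 (τ * (θ h)⁻¹) (by simp [e2])
    exact ⟨x * y * h, by simp [x1, x2, y1, y2]⟩
  have iso : ∀ I : Subgroup (Perm (Fin d) × Perm (Fin e)), (φ.prod θ).range = I →
      Nonempty (Γ ≃* I) := fun I e => ⟨e ▸ MonoidHom.ofInjective hi⟩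
  by_cases he : ∀ h, Perm.sign (φ h) = 1
  · left
    have : Nontrivial (Fin d) := Fin.nontrivial_iff_two_le.2 h2
    have e1 : φ.range = alternatingGroup (Fin d) := le_antisymm (by rintro _ ⟨h, rfl⟩; exact he h)
      fun σ hσ => (h1 σ hσ).imp fun _ h => h.1
    obtain ⟨i⟩ := iso ((alternatingGroup (Fin d)).prod (alternatingGroup (Fin e))) (le_antisymm
      (by rintro _ ⟨h, rfl⟩; exact ⟨he h, h4 he h⟩)
      (by
        rintro ⟨x, y⟩ ⟨hx, hy⟩
        exact key x y 1 (by rw [map_one, map_one]; exact Eq.symm hx)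
          (by rw [map_one, map_one]; exact Eq.symm hy)))
    exact ⟨e1 ▸ alternatingGroup.index_eq_two, ⟨i.trans (prodEquiv _ _)⟩⟩
  right
  push Not at he
  obtain ⟨h0, hh0⟩ := he
  have s0 : Perm.sign (φ h0) = -1 := (Int.units_eq_one_or _).resolve_left hh0
  have ex : ∀ σ : Perm (Fin d), ∃ h, Perm.sign (φ h) = Perm.sign σ := fun σ => by
    rcases Int.units_eq_one_or (Perm.sign σ) with e | e
    · exact ⟨1, by simp [e]⟩
    · exact ⟨h0, by rw [e, s0]⟩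
  refine ⟨eq_top_iff.2 fun σ _ => ?_, ?_⟩
  · obtain ⟨h, hh⟩ := ex σ
    obtain ⟨x, hx⟩ := key σ (θ h) h hh rfl
    exact ⟨x, congrArg Prod.fst hx⟩
  by_cases ht : ∀ h, Perm.sign (θ h) = 1
  · obtain ⟨i⟩ := iso ((⊤ : Subgroup (Perm (Fin d))).prod (alternatingGroup (Fin e))) (le_antisymm
      (by rintro _ ⟨h, rfl⟩; exact ⟨trivial, ht h⟩) fun x hx => by
        obtain ⟨h, hh⟩ := ex x.1
        exact key x.1 x.2 h hh ((ht h).trans (Eq.symm hx.2)))
    exact Or.inr (Or.inl ⟨i.trans ((prodEquiv _ _).trans (topEquiv.prodCongr (MulEquiv.refl _)))⟩)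
  by_cases hd : ∀ h, Perm.sign (φ h) = Perm.sign (θ h)
  · refine Or.inr (Or.inr (iso _ (le_antisymm ?_ fun x hx => ?_)))
    · rintro _ ⟨h, rfl⟩
      change Perm.sign (φ h) * Perm.sign (θ h) = 1
      rw [hd, Int.units_mul_self]
    · obtain ⟨h, hh⟩ := ex x.1
      have hx' : Perm.sign x.1 * Perm.sign x.2 = 1 := hx
      refine key x.1 x.2 h hh ?_
      rw [← hd, hh, eq_inv_of_mul_eq_one_left hx', Int.units_inv_eq_self]
  left
  push Not at ht hd
  obtain ⟨h5, hh5⟩ := ht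
  obtain ⟨h6, hh6⟩ := hd
  have ex2 : ∃ h, Perm.sign (φ h) = 1 ∧ Perm.sign (θ h) = -1 := by
    have s5 := (Int.units_eq_one_or _).resolve_left hh5
    rcases Int.units_eq_one_or (Perm.sign (φ h5)) with a5 | a5
    · exact ⟨h5, a5, s5⟩
    rcases Int.units_eq_one_or (Perm.sign (φ h6)) with a6 | a6 <;>
      rcases Int.units_eq_one_or (Perm.sign (θ h6)) with b6 | b6
    · exact absurd (a6.trans b6.symm) hh6
    · exact ⟨h6, a6, b6⟩
    · exact ⟨h5 * h6, by simp [a5, a6], by simp [s5, b6]⟩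
    · exact absurd (a6.trans b6.symm) hh6
  obtain ⟨y, y1, y2⟩ := ex2
  obtain ⟨i⟩ := iso ⊤ (eq_top_iff.2 fun x _ => by
    obtain ⟨h, hh⟩ := ex x.1
    by_cases e : Perm.sign (θ h) = Perm.sign x.2
    · exact key x.1 x.2 h hh e
    · refine key x.1 x.2 (h * y) (by simp [y1, hh]) ?_
      rw [map_mul, map_mul, y2, mul_neg, mul_one, neg_eq_iff_eq_neg]
      exact Int.units_ne_iff_eq_neg.1 e)
  exact ⟨i.trans topEquiv⟩

end H27.FA
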