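/- Row S3384, part M, slot G2: transitivity on the nonsingular points. -/
import Cfsg.Agent.H86.M8.Def

set_option autoImplicit false

namespace H27.M8G2

open H6 (F4)
open H56 H86.M8

theorem k0 : ∀ x y : E, nr x ≠ nr y → ∃ s t : F4, s ≠ 0 ∧ nr (t • star x) + nr (t • y) = 1 ∧
    (t • star x) * x + (t • y) * star y = s • (1 : E) ∧ (t • star x) * y + (t • y) * star x = 0 := by
  decide +kernel

theorem k1 : ∀ x y : E, x ≠ 0 → nr x = nr y → ∃ a b : E, nr a + nr b = 1 ∧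
    nr (a * x + b * star y) ≠ nr x := by
  decide +kernel

theorem stepK {i j : Fin 4} (h : i ≠ j) (v : V) (hv : nr (v i) ≠ nr (v j)) :
    ∃ g ∈ JJ, ∃ s : F4, s ≠ 0 ∧ g v i = s • (1 : E) ∧ g v j = 0 ∧
      ∀ k, k ≠ i → k ≠ j → g v k = v k := by
  obtain ⟨s, t, hs, h1, h2, h3⟩ := k0 _ _ hv
  refine ⟨Lh i j ⟨_, _, h1⟩, Lh_mem _ _ _, s, hs, ?_, ?_, fun k hi hj => ?_⟩
  · rw [Lh_apply h, if_pos rfl, h2]
  · rw [Lh_apply h, if_neg h.symm, if_pos rfl, h3]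
  · rw [Lh_apply h, if_neg hi, if_neg hj]

theorem stepK' {i j k : Fin 4} (hij : i ≠ j) (hik : i ≠ k) (hjk : j ≠ k) (v : V) :
    ∃ g ∈ JJ, g v k = 0 ∧ ∀ l, l ≠ i → l ≠ j → l ≠ k → g v l = v l := by
  by_cases h0 : v k = 0
  · exact ⟨1, one_mem _, h0, fun _ _ _ _ => rfl⟩
  by_cases h1 : nr (v i) = nr (v k)
  swap
  · obtain ⟨g, hg, -, -, -, h3, h4⟩ := stepK hik v h1
    exact ⟨g, hg, h3, fun l a _ c => h4 l a c⟩
  by_cases h2 : nr (v j) = nr (v k)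
  swap
  · obtain ⟨g, hg, -, -, -, h3, h4⟩ := stepK hjk v h2
    exact ⟨g, hg, h3, fun l _ b c => h4 l b c⟩
  have hi0 : v i ≠ 0 := fun e => h0 ((nr_eq_zero _).1 (by rw [← h1, e, nr_zero]))
  obtain ⟨a, b, hab, hn⟩ := k1 (v i) (v j) hi0 (h1.trans h2.symm)
  obtain ⟨g, hg, -, -, -, h3, h4⟩ := stepK hik (Lh i j ⟨a, b, hab⟩ v) (by
    rw [Lh_apply hij, Lh_apply hij, if_pos rfl, if_neg hik.symm, if_neg hjk.symm, ← h1]
    exact hn)
  refine ⟨g * Lh i j ⟨a, b, hab⟩, mul_mem hg (Lh_mem _ _ _), h3, fun l a b c => ?_⟩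
  rw [O.mul_apply, h4 l a c, Lh_apply hij, if_neg a, if_neg b]

theorem jG2 : G2 := by
  intro v hv
  obtain ⟨g1, m1, a1, -⟩ := stepK' (i := 0) (j := 1) (k := 3) (by decide) (by decide) (by decide) v
  obtain ⟨g2, m2, a2, b2⟩ :=
    stepK' (i := 0) (j := 1) (k := 2) (by decide) (by decide) (by decide) (g1 v)
  have a3 : g2 (g1 v) 3 = 0 := by rw [b2 3 (by decide) (by decide) (by decide), a1]
  have hq : Q (g2 (g1 v)) ≠ 0 := by rwa [O.map_Q, O.map_Q]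
  obtain ⟨g3, m3, s, hs, c0, c1, c2⟩ := stepK (i := 0) (j := 1) (by decide) (g2 (g1 v)) fun e => by
    apply hq
    rw [Q_apply, Fin.sum_univ_four, a2, a3, e, nr_zero, add_zero, add_zero, H6.F4.add_self]
  refine ⟨g3 * (g2 * g1), mul_mem m3 (mul_mem m2 m1), s, hs, funext fun k => ?_⟩
  rw [O.mul_apply, O.mul_apply]
  fin_cases k
  · simpa using c0
  · simpa using c1
  · simpa [a2] using c2 2 (by decide) (by decide)
  · simpa [a3] using c2 3 (by decide) (by decide)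

end H27.M8G2
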