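import Cfsg.Agent.H42.SimXBSpec

/-! Tower SIM, chapter XA part two: the choice of `b`. -/

set_option autoImplicit false

namespace H27.SxK4

open Subgroup Cfsg H98 Matrix H0.Sim H42.SX

theorem jobK4 : JobK4 := by
  intro n F _ _ u q p Θ H Q E g h hN hm
  by_contra hc
  push Not at hc
  have hz : ∀ b ∈ cj g E, b ^ p ∈ Zg n F u q := by
    intro b hb
    have h1 := h.pE _ (mem_cj.1 hb)
    have h2 : b ^ p = (g⁻¹ * b * g) ^ p := by
      have e : (g⁻¹ * b * g) ^ p = g⁻¹ * b ^ p * g := by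
        simpa using conj_pow (a := g⁻¹) (b := b) (i := p)
      have c := mem_center_iff.1 h1.2 g
      rw [e] at c ⊢
      calc b ^ p = g * (g⁻¹ * b ^ p * g) * g⁻¹ := by group
        _ = g⁻¹ * b ^ p * g := by rw [c]; group
    rwa [h2]
  have hin : ∀ b ∈ cj g E, (b : Mt n F) ∈ sp E := fun b hb => by
    by_contra hb'
    exact hc b hb hb' (hz b hb)
  have hs : St g (sp E : Set (Mt n F)) := by
    intro m hm'
    refine Submodule.span_induction (p := fun m _ =>
      (g : Mt n F) * m * ((g⁻¹ : GL (Fin n) F) : Mt n F) ∈ sp E) ?_ ?_ ?_ ?_ hm'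
    · rintro _ ⟨e, he, rfl⟩
      simpa using hin _ (conj_mem_cj (g := g) he)
    · simp
    · intro a b _ _ ha hb
      rw [mul_add, add_mul]; exact add_mem ha hb
    · intro c a _ ha
      rw [mul_smul_comm, smul_mul_assoc]; exact Submodule.smul_mem _ c ha
  exact h.Bne (cj_eq_self (hN (hm g h.gS hs)))

end H27.SxK4
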