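import Cfsg.Agent.H52.SimXSSpec

/-! # S3694 (tower SIM), chapter XS: the averaging map on coset representatives. -/

set_option autoImplicit false

namespace H27.XsAv3

open Subgroup Cfsg H98 Matrix H0.Sim H52.XS
open scoped commutatorElement

theorem sum_out {G M : Type*} [Group G] [Fintype G] [AddCommMonoid M] (Z : Subgroup G)
    [Fintype (G ⧸ Z)] (f : G → M) (hf : ∀ x, ∀ z ∈ Z, f (x * z) = f x) :
    ∑ x, f x = Nat.card Z • ∑ d : G ⧸ Z, f d.out := by
  classical
  have := Fintype.ofFinite Z
  have hb : Function.Bijective fun a : (G ⧸ Z) × Z => a.1.out * (a.2 : G) := by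
    constructor
    · rintro ⟨d, z⟩ ⟨d', z'⟩ e
      have e1 : d = d' := by
        have := congrArg (QuotientGroup.mk (s := Z)) e
        simpa only [QuotientGroup.mk_mul_of_mem _ z.2, QuotientGroup.mk_mul_of_mem _ z'.2,
          QuotientGroup.out_eq'] using this
      subst e1
      exact Prod.ext rfl (Subtype.ext (mul_left_cancel e))
    · intro g
      obtain ⟨h, e⟩ := QuotientGroup.mk_out_eq_mul Z g
      exact ⟨⟨QuotientGroup.mk g, h⁻¹⟩, by simp [e]⟩
  rw [← hb.sum_comp f, Fintype.sum_prod_type, Finset.smul_sum]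
  refine Finset.sum_congr rfl fun d _ => ?_
  rw [Finset.sum_congr rfl (g := fun _ => f d.out) fun z _ => hf _ _ z.2, Finset.sum_const,
    Finset.card_univ, Nat.card_eq_fintype_card]

theorem job : JobAv3 := by
  intro n F _ _ Z E P ex av sm
  classical
  have sc : ∀ (c : F) (m : Mt n F), Matrix.scalar (Fin n) c * m = c • m := fun c m => by
    rw [Matrix.scalar_apply, ← smul_eq_diagonal_mul]
  refine { av with zero := fun x hx hz => ?_, sum := ?_ }
  · obtain ⟨y, hy, hne⟩ : ∃ y ∈ E, x * y ≠ y * x := by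
      by_contra hc
      push Not at hc
      exact hz (ex.ce x hx hc)
    obtain ⟨c, hc⟩ := ex.Zc _ (ex.cm y hy x hx)
    have c1 : c ≠ 1 := fun e => hne (by
      have : ⁅y, x⁆ = 1 := Units.ext (by rw [hc, e, map_one, Units.val_one])
      exact (commutatorElement_eq_one_iff_mul_comm.1 this).symm)
    have h1 := av.cyc y hy ((x * y⁻¹ : GL (Fin n) F) : Mt n F)
    rw [← Units.val_mul, ← Units.val_mul, show y * (x * y⁻¹) = ⁅y, x⁆ * x by
      rw [commutatorElement_def]; group, inv_mul_cancel_right, Units.val_mul, hc, sc, map_smul] at h1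
    have h2 : (c - 1) • P (x : Mt n F) = 0 := by rw [sub_smul, h1, one_smul, sub_self]
    exact (smul_eq_zero.1 h2).resolve_left (sub_ne_zero.2 c1)
  · have := Fintype.ofFinite E
    have := Fintype.ofFinite (E ⧸ Z.subgroupOf E)
    have inj : Function.Injective fun d : E ⧸ Z.subgroupOf E => ((d.out : E) : GL (Fin n) F) :=
      fun d d' e => Quotient.out_injective (Subtype.ext e)
    refine ⟨Finset.univ.map ⟨_, inj⟩, ?_, ?_, ?_, fun w => ?_⟩
    · intro x hx
      obtain ⟨d, -, rfl⟩ := Finset.mem_map.1 hx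
      exact d.out.2
    · intro x hx y hy hxy
      obtain ⟨d, -, rfl⟩ := Finset.mem_map.1 hx
      obtain ⟨d', -, rfl⟩ := Finset.mem_map.1 hy
      have : d = d' := by
        rw [← QuotientGroup.out_eq' d, ← QuotientGroup.out_eq' d', QuotientGroup.eq]
        exact hxy
      rw [this]
    · rw [Finset.card_map, Finset.card_univ, ← Nat.card_eq_fintype_card]
      rfl
    · have cz : Nat.card (Z.subgroupOf E) = Nat.card Z :=
        Nat.card_congr (subgroupOfEquivOfLe ex.ZE).toEquiv
      have nz : (Nat.card Z : F) ≠ 0 := fun e => ex.un (by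
        obtain ⟨k, hk⟩ := card_dvd_of_le ex.ZE
        rw [hk, Nat.cast_mul, e, zero_mul])
      have h1 := sm w
      rw [finsum_eq_sum_of_fintype, sum_out (Z.subgroupOf E) _ ?_, cz,
        ← Nat.cast_smul_eq_nsmul F] at h1
      · rw [Finset.sum_map]
        exact (smul_right_injective _ nz h1).symm
      · intro x z hz
        obtain ⟨c, hc⟩ := ex.Zc _ (mem_subgroupOf.1 hz)
        obtain ⟨c', hc'⟩ := ex.Zc _ (Z.inv_mem (mem_subgroupOf.1 hz))
        have e : c • c' • (1 : Mt n F) = 1 := by
          rw [← sc, ← sc, mul_one, ← hc, ← hc', ← Units.val_mul, mul_inv_cancel, Units.val_one]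
        simp only [coe_mul, _root_.mul_inv_rev, Units.val_mul]
        rw [hc, hc', mul_assoc, mul_assoc, sc, sc, map_smul, ← mul_one (P _), ← mul_smul_comm,
          ← mul_smul_comm, e]

end H27.XsAv3
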